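import Cfsg.Agent.ONan.Ito
import Cfsg.Agent.Perm.PrimeDeg

/-! Tools for doubly transitive groups of degree `p² + 1`: orbits of prime length (`orb_prime`), Burnside's
dichotomy (`pd_dich`), normal Sylow subgroups (`norm_syl`), lines (`Seed`, `no_line`), linked designs (`link`),
centralisers of involutions (`inv_cent`). -/

set_option autoImplicit false

namespace Cfsg.Agent.ONan

open MulAction Plane

variable {G X : Type*} [Group G] [MulAction G X]

theorem orb_dvd [Finite G] {J K : Subgroup G} {x : X} (h1 : J ≤ K) (h2 : ∀ g ∈ K, g • x = x → g ∈ J) :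
    (orb J x).ncard ∣ (orb K x).ncard := by
  have e : (J ⊓ stabilizer G x : Subgroup G) = K ⊓ stabilizer G x :=
    le_antisymm (inf_le_inf_right _ h1) fun g hg => ⟨h2 g hg.1 hg.2, hg.2⟩
  have h3 := Subgroup.card_dvd_of_le h1
  rw [← orb_card J x, ← orb_card K x, e] at h3
  exact Nat.dvd_of_mul_dvd_mul_right Nat.card_pos h3

theorem orb_prime [Finite G] [Finite X] {J K : Subgroup G} {x : X} {p : ℕ} (hp : p.Prime) (h1 : J ≤ K)
    (h2 : ∀ g ∈ K, g • x = x → g ∈ J) (hc : (orb K x).ncard = p) : (∀ g ∈ J, g • x = x) ∨ orb J x = orb K x := by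
  rcases (Nat.dvd_prime hp).1 (hc ▸ orb_dvd h1 h2) with h | h
  · obtain ⟨w, hw⟩ := Set.ncard_eq_one.1 h
    exact .inl fun g hg => (hw.le ⟨g, hg, rfl⟩).trans (hw.le ⟨1, one_mem _, one_smul _ _⟩).symm
  · exact .inr (Set.eq_of_subset_of_ncard_le (fun _ ⟨g, hg, e⟩ => ⟨g, h1 hg, e⟩) (hc.trans h.symm).le)

/-- A normal subgroup acts trivially or transitively on an orbit of prime length. -/
theorem orb_normal [Finite G] [Finite X] {D K : Subgroup G} {x : X} {p : ℕ} (hp : p.Prime) (h1 : D ≤ K)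
    (hn : ∀ k ∈ K, ∀ d ∈ D, k * d * k⁻¹ ∈ D) (hc : (orb K x).ncard = p) :
    (∀ d ∈ D, ∀ y ∈ orb K x, d • y = y) ∨ orb D x = orb K x := by
  let J : Subgroup G :=
    { carrier := {k | k ∈ K ∧ ∃ d ∈ D, d • x = k • x}
      mul_mem' := fun {k l} ⟨k1, d, d1, d2⟩ ⟨l1, e, e1, e2⟩ => ⟨mul_mem k1 l1, k * e * k⁻¹ * d, mul_mem (hn k k1 e e1) d1,
        by rw [mul_smul, d2, mul_smul, inv_smul_smul, mul_smul, e2, mul_smul]⟩
      one_mem' := ⟨one_mem _, 1, one_mem _, rfl⟩
      inv_mem' := fun {k} ⟨k1, d, d1, d2⟩ => ⟨inv_mem k1, k⁻¹ * d⁻¹ * k⁻¹⁻¹, hn _ (inv_mem k1) _ (inv_mem d1), by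
        rw [inv_inv, mul_smul, ← d2, mul_smul, inv_smul_smul]⟩ }
  refine (orb_prime (J := J) hp (fun k hk => hk.1) (fun g hg e => ⟨hg, 1, one_mem _, by rw [e, one_smul]⟩) hc).imp
    (fun h => ?_) fun h => ?_
  · rintro d hd _ ⟨k, hk, rfl⟩
    have := h _ ⟨h1 (hn _ (inv_mem hk) d hd), _, hn _ (inv_mem hk) d hd, rfl⟩
    rwa [inv_inv, mul_smul, mul_smul, inv_smul_eq_iff] at this
  · refine h ▸ Set.Subset.antisymm (fun _ ⟨d, hd, e⟩ => ⟨d, ⟨h1 hd, d, hd, rfl⟩, e⟩) ?_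
    rintro _ ⟨k, ⟨-, d, d1, d2⟩, rfl⟩
    exact ⟨d, d1, d2⟩

theorem pd_dich [Finite G] [IsPretransitive G X] {p : ℕ} (hp : p.Prime) (hX : Nat.card X = p) :
    Tr2 G X ∨ ∀ (g : G) (x y : X), x ≠ y → g • x = x → g • y = y → ∀ z : X, g • z = z := by
  haveI := Fact.mk hp
  have : Finite X := Nat.finite_of_card_ne_zero (hX ▸ hp.ne_zero)
  let H := (toPermHom G X).range
  have : IsPretransitive H X := ⟨fun x y => by
    obtain ⟨g, hg⟩ := exists_smul_eq G x y
    exact ⟨⟨_, g, rfl⟩, hg⟩⟩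
  obtain ⟨P⟩ : Nonempty (Sylow p H) := inferInstance
  obtain ⟨c, e, -, -, hc⟩ := Perm.exists_zcoord hX P
  refine (Perm.aff_or_two_trans hc).symm.imp (fun h x y z w e1 e2 => ?_) fun h g x y xy gx gy z => ?_
  · obtain ⟨⟨_, g, rfl⟩, hg⟩ := tr2_of h x y z w e1 e2
    exact ⟨g, hg⟩
  · obtain ⟨s, t, hs⟩ := h ⟨_, g, rfl⟩
    obtain ⟨x, rfl⟩ := e.surjective x
    obtain ⟨y, rfl⟩ := e.surjective y
    obtain ⟨z, rfl⟩ := e.surjective z
    have h1 := e.injective ((hs x).symm.trans gx)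
    have h2 := e.injective ((hs y).symm.trans gy)
    have h3 : s = 1 := mul_right_cancel₀ (sub_ne_zero.2 fun e' : x = y => xy (e' ▸ rfl)) (by linear_combination h1 - h2)
    exact (hs z).trans (congrArg e (by rw [h3] at h1 ⊢; linear_combination h1))

theorem norm_syl [Finite G] {C : Subgroup G} {p k m : ℕ} (hp : p.Prime) (hc : Nat.card C = p ^ k * m) (h0 : 0 < m)
    (hm : m < p) : ∃ P : Subgroup G, Nat.card P = p ^ k ∧ ∀ x, x ∈ P ↔ x ∈ C ∧ x ^ p ^ k = 1 := by
  haveI := Fact.mk hp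
  obtain ⟨P⟩ : Nonempty (Sylow p C) := inferInstance
  have h1 : Nat.card P = p ^ k := by
    rw [P.card_eq_multiplicity, hc, Nat.factorization_mul (pow_pos hp.pos k).ne' h0.ne', hp.factorization_pow]
    simp [Nat.factorization_eq_zero_of_not_dvd (Nat.not_dvd_of_pos_of_lt h0 hm)]
  have h2 : (P : Subgroup C).index = m := Nat.eq_of_mul_eq_mul_left (pow_pos hp.pos k)
    (by rw [← hc, ← h1, Subgroup.card_mul_index])
  have h3 : Nat.card (Sylow p C) = 1 := by
    have h4 := Nat.le_of_dvd h0 (h2 ▸ P.card_dvd_index)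
    have h5 : Nat.card (Sylow p C) % p = 1 % p := card_sylow_modEq_one p C
    rwa [Nat.mod_eq_of_lt (by omega), Nat.mod_eq_of_lt hp.one_lt] at h5
  have := (Nat.card_eq_one_iff_unique.1 h3).1
  refine ⟨(P : Subgroup C).map C.subtype, by rw [Subgroup.card_map_of_injective C.subtype_injective, h1], fun x => ⟨?_,
    fun ⟨x1, x2⟩ => ?_⟩⟩
  · rintro ⟨x, hx, rfl⟩
    exact ⟨x.2, congrArg (fun y : P => (y.1.1 : G)) (h1 ▸ pow_card_eq_one' (x := (⟨x, hx⟩ : P)))⟩
  · obtain ⟨Q, hQ⟩ := (show IsPGroup p (Subgroup.zpowers (⟨x, x1⟩ : C)) from by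
      rintro ⟨_, n, rfl⟩
      refine ⟨k, Subtype.ext (Subtype.ext ?_)⟩
      show (x ^ n) ^ (p ^ k) = 1
      rw [← zpow_natCast, zpow_comm, zpow_natCast, x2, one_zpow]).exists_le_sylow
    exact ⟨⟨x, x1⟩, Subsingleton.elim Q P ▸ hQ (Subgroup.mem_zpowers _), rfl⟩

theorem conj_card (H : Subgroup G) (c : G) : {x | ∃ g ∈ H, g * c * g⁻¹ = x}.ncard *
    Nat.card (H ⊓ Subgroup.centralizer {c} : Subgroup G) = Nat.card H := by
  have := @orb_card G G _ (MulAction.compHom G (MulAut.conj : G →* MulAut G)) H c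
  refine Eq.trans ?_ this
  congr 4
  ext g
  exact and_congr_right fun _ => Subgroup.mem_centralizer_singleton_iff.trans mul_inv_eq_iff_eq_mul.symm

/-- `S \ {a}` is a block for the stabiliser of `a`. -/
def Seed (G : Type*) [Group G] [MulAction G X] (a : X) (S : Set X) : Prop :=
  a ∈ S ∧ ∀ g : G, g • a = a → ∀ x ∈ S, x ≠ a → g • x ∈ S → ∀ y ∈ S, g • y ∈ S

theorem Seed.smul {a : X} {S : Set X} (h : Seed G a S) (w : G) : Seed G (w • a) {x | w⁻¹ • x ∈ S} :=
  ⟨by simpa using h.1, fun g hg x hx xa gx y hy => by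
    have := h.2 (w⁻¹ * g * w) (by rw [mul_smul, mul_smul, hg, inv_smul_smul]) _ hx
      (fun e => xa (inv_smul_eq_iff.1 e)) (by simpa [mul_smul] using gx) _ hy
    simpa [mul_smul] using this⟩

theorem no_line [Finite X] (t2 : Tr2 G X) {p : ℕ} (hp : 2 ≤ p) (hX : Nat.card X = p ^ 2 + 1) {a b : X} (ab : a ≠ b)
    {S : Set X} (ha : Seed G a S) (hb : Seed G b S) (hS : S.ncard = p + 1) : False := by
  have k1 : ∀ {a}, Seed G a S → ∀ x ∈ S, x ≠ a → ∀ y ∈ S, y ≠ a → ∃ g : G, (∀ z ∈ S, g • z ∈ S) ∧ g • a = a ∧ g • x = y :=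
    fun {a} ha x hx xa y hy ya => by
      obtain ⟨g, g1, g2⟩ := t2 a x a y xa.symm ya.symm
      exact ⟨g, ha.2 g g1 x hx xa (g2 ▸ hy), g1, g2⟩
  have k2 : ∀ x ∈ S, ∃ g : G, (∀ z ∈ S, g • z ∈ S) ∧ g • x = a := fun x hx => by
    by_cases e : x = b
    · obtain ⟨c, c1, c2⟩ := Set.exists_mem_notMem_of_ncard_lt_ncard (s := {a, b}) (t := S)
        (by rw [Set.ncard_pair ab]; omega)
      simp only [Set.mem_insert_iff, Set.mem_singleton_iff, not_or] at c2
      obtain ⟨g, g1, -, g2⟩ := k1 ha b hb.1 ab.symm c c1 c2.1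
      obtain ⟨k, k1, -, k2⟩ := k1 hb c c1 c2.2 a ha.1 ab
      exact ⟨k * g, fun z hz => mul_smul k g z ▸ k1 _ (g1 z hz), by rw [mul_smul, e, g2, k2]⟩
    · obtain ⟨g, g1, -, g2⟩ := k1 hb x hx e a ha.1 ab
      exact ⟨g, g1, g2⟩
  have k3 : ∀ g : G, ∀ x ∈ S, ∀ y ∈ S, x ≠ y → g • x ∈ S → g • y ∈ S → ∀ z ∈ S, g • z ∈ S :=
    fun g x hx y hy xy gx gy z hz => by
      obtain ⟨m, m1, m2⟩ := k2 x hx
      obtain ⟨n, n1, n2⟩ := k2 _ gx
      have inv : ∀ g : G, (∀ z ∈ S, g • z ∈ S) → ∀ z, g • z ∈ S → z ∈ S := fun g hg z hz => by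
        obtain ⟨w, w1, w2⟩ := (((Set.toFinite S).injOn_iff_bijOn_of_mapsTo (f := (g • ·)) hg).1
          (fun _ _ _ _ e => smul_left_cancel g e)).2.2 hz
        exact smul_left_cancel g w2 ▸ w1
      have := ha.2 (n * g * m⁻¹) (by rw [mul_smul, mul_smul, ← m2, inv_smul_smul, n2, m2]) _ (m1 y hy)
        (fun e => xy (smul_left_cancel m (m2.trans e.symm))) (by simpa [mul_smul] using n1 _ gy) _ (m1 z hz)
      exact inv n n1 _ (by simpa [mul_smul] using this)
  obtain ⟨z, -, hz⟩ := Set.exists_mem_notMem_of_ncard_lt_ncard (s := S) (t := Set.univ)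
    (by rw [Set.ncard_univ]; nlinarith)
  have := fun s (hs : s ∈ S) => t2 a b z s ab fun e => hz (e ▸ hs)
  choose! g g1 g2 using this
  have h1 := Set.ncard_le_ncard_of_injOn (s := S ×ˢ (S \ {a})) (t := {z}ᶜ) (fun x => g x.1 • x.2)
    (fun x hx e => hx.2.2 (smul_left_cancel _ ((show _ = z from e).trans (g1 _ hx.1).symm)))
    (by
      rintro ⟨s, u⟩ ⟨hs, hu⟩ ⟨s', u'⟩ ⟨hs', hu'⟩ e
      have e1 : g s • u = g s' • u' := e
      dsimp only at hs hu hs' hu'
      obtain rfl : s = s' := by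
        by_contra ne
        have h2 := k3 ((g s)⁻¹ * g s') a ha.1 u' hu'.1 (Ne.symm hu'.2)
          (by rw [mul_smul, g1 _ hs', ← g1 _ hs, inv_smul_smul]; exact ha.1)
          (by rw [mul_smul, ← e1, inv_smul_smul]; exact hu.1) b hb.1
        rw [mul_smul, g2 _ hs'] at h2
        have h3 := k3 (g s) b hb.1 _ h2 (fun e => ne (by rw [← g2 _ hs, e, smul_inv_smul])) ((g2 _ hs).symm ▸ hs)
          (by simpa using hs') a ha.1
        exact hz (g1 _ hs ▸ h3)
      rw [smul_left_cancel _ e1])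
  have h2 := Set.ncard_diff_singleton_add_one ha.1
  have h3 := Set.ncard_add_ncard_compl {z}
  rw [Set.ncard_prod, hS] at h1
  rw [Set.ncard_singleton] at h3
  have h4 : (S \ {a}).ncard = p := by omega
  rw [h4] at h1
  nlinarith

theorem inv_cent [Finite G] [Finite X] (t2 : Tr2 G X) {a b : X} (ab : a ≠ b) {t : G} (ht : t * t = 1) :
    {x : X | t • x ≠ x}.ncard ≤ Nat.card (Subgroup.centralizer {t}) := by
  have := fun x y : X => fun e => t2 a b x y ab e
  choose! τ τ1 τ2 using this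
  set C := Subgroup.centralizer {t}
  have tt : ∀ x : X, t • t • x = x := fun x => by rw [← mul_smul, ht, one_smul]
  have h1 := Nat.card_le_card_of_injective (fun x : (G ⧸ C) × {x : X | t • x ≠ x} =>
    x.1.out * t * x.1.out⁻¹ * τ (x.1.out • x.2.1) (x.1.out • t • x.2.1)) (by
      rintro ⟨q, x, hx⟩ ⟨r, y, hy⟩ e
      have n1 : ∀ (g : G) (x : X), t • x ≠ x → g • x ≠ g • t • x := fun g x hx e => hx (smul_left_cancel g e).symm
      have e1 := congrArg (· • a) e
      have e2 := congrArg (· • b) e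
      simp only [mul_smul, τ1 _ _ (n1 _ _ hx), τ1 _ _ (n1 _ _ hy), τ2 _ _ (n1 _ _ hx), τ2 _ _ (n1 _ _ hy),
        inv_smul_smul, tt] at e1 e2
      simp only [e1, e2, mul_left_inj] at e
      obtain rfl : q = r := by
        rw [← q.out_eq, ← r.out_eq]
        refine QuotientGroup.eq.2 (Subgroup.mem_centralizer_singleton_iff.2 ?_)
        calc q.out⁻¹ * r.out * t = q.out⁻¹ * (r.out * t * r.out⁻¹) * r.out := by group
          _ = _ := by rw [← e]; group
      exact Prod.ext rfl (Subtype.ext (smul_left_cancel _ e2)))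
  rw [Nat.card_prod, Subgroup.card_eq_card_quotient_mul_card_subgroup C] at h1
  exact Nat.le_of_mul_le_mul_left h1 Nat.card_pos

theorem no_ab [Finite G] [Finite X] (t2 : Tr2 G X) (faith : ∀ g : G, (∀ x : X, g • x = x) → g = 1) {p : ℕ} (hp : p.Prime)
    (hX : Nat.card X = p ^ 2 + 1) {x : X} {N : Subgroup G} (hle : N ≤ stabilizer G x)
    (hn : ∀ g ∈ stabilizer G x, ∀ n ∈ N, g * n * g⁻¹ ∈ N) (ab : ∀ a ∈ N, ∀ b ∈ N, a * b = b * a)
    {n : G} (n1 : n ∈ N) {y : X} (y1 : y ≠ x) (y2 : n • y = y) : n = 1 := by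
  by_contra n2
  obtain ⟨-, F, _, _, k, hk, -, -, -, h⟩ := core_ab t2 faith hle hn ab ⟨n, n1, n2, y, y1, y2⟩
  obtain ⟨q, hq⟩ : ∃ q, Fintype.card F = q + 1 := ⟨Fintype.card F - 1, by have := Fintype.card_pos (α := F); omega⟩
  have q0 : 0 < q := by have := Fintype.one_lt_card (α := F); omega
  obtain ⟨k, rfl⟩ : ∃ j, k = j + 3 := ⟨k - 3, by omega⟩
  rw [hX, hq, Nat.add_sub_cancel, ← geom_sum_mul_add, Nat.add_sub_cancel, Finset.sum_range_succ', pow_zero] at h
  have h1 := Nat.add_right_cancel (Nat.eq_of_mul_eq_mul_right q0 h)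
  simp only [pow_succ (q + 1), ← Finset.sum_mul] at h1
  rw [Finset.sum_range_succ', Finset.sum_range_succ'] at h1
  generalize ∑ i ∈ Finset.range k, (q + 1) ^ (i + 1 + 1) = s at h1
  obtain ⟨i, hi, e⟩ := (Nat.dvd_prime_pow hp).1 (Dvd.intro_left _ h1.symm)
  have := hp.two_le
  clear h
  interval_cases i <;> simp only [zero_add, pow_one, pow_zero] at h1 e
  · omega
  · rw [e] at h1; nlinarith [Nat.zero_le (s * p)]
  · rw [e] at h1; nlinarith [Nat.zero_le (s * p ^ 2), pow_pos hp.pos 2]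

theorem des {A B : Type*} [MulAction G A] [MulAction G B] [Finite A] [Finite B] {p : ℕ} (hp : 2 ≤ p)
    (hA : Nat.card A = p) (hB : Nat.card B = p) (t2 : Tr2 G A) (tB : ∀ y z : B, ∃ g : G, g • y = z) {E : A → B → Prop}
    (inv : ∀ (g : G) x y, E (g • x) (g • y) ↔ E x y) : ∃ k l : ℕ, (∀ x, {y | E x y}.ncard = k) ∧
      (∀ x x', x ≠ x' → {y | E x y ∧ E x' y}.ncard = l) ∧ k + (p - 1) * l = k * k := by
  classical
  cases nonempty_fintype A
  cases nonempty_fintype B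
  have : Nontrivial A := Finite.one_lt_card_iff_nontrivial.1 (by omega)
  obtain ⟨a, b, ab⟩ := exists_pair_ne A
  obtain ⟨D₀⟩ : Nonempty B := (Nat.card_pos_iff.1 (by omega)).1
  obtain ⟨k, hk⟩ : ∃ k, {x | E x D₀}.ncard = k := ⟨_, rfl⟩
  have kL : ∀ D, {p | E p D}.ncard = k := fun D => by
    obtain ⟨g, rfl⟩ := tB D₀ D
    exact (cnt g fun x => inv g x D₀).symm.trans hk
  have kP : ∀ p, {D | E p D}.ncard = k := by
    have h1 : ∀ p, {D | E p D}.ncard = {D | E a D}.ncard := fun p => by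
      obtain ⟨g, rfl⟩ := Tr2_tr t2 ab a p
      exact (cnt g fun x => inv g a x).symm
    have h3 : ∑ p, {D | E p D}.ncard = ∑ D, {p | E p D}.ncard := by
      simp only [ncard_sum]; exact Finset.sum_comm
    simp only [h1, kL, Finset.sum_const, Finset.card_univ, smul_eq_mul, ← Nat.card_eq_fintype_card, hA, hB] at h3
    exact fun p => (h1 p).trans (Nat.eq_of_mul_eq_mul_left (by omega) h3)
  obtain ⟨l, hl⟩ : ∃ l, {D | E a D ∧ E b D}.ncard = l := ⟨_, rfl⟩
  have lP : ∀ p q, p ≠ q → {D | E p D ∧ E q D}.ncard = l := fun p q e => by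
    obtain ⟨g, rfl, rfl⟩ := t2 a b p q ab e
    exact (cnt g fun x => by rw [inv, inv]).symm.trans hl
  refine ⟨k, l, kP, lP, ?_⟩
  have h3 : ∑ q, {D | E a D ∧ E q D}.ncard = k * k := by
    have : ∀ D, (∑ q, if E a D ∧ E q D then 1 else 0) = (if E a D then 1 else 0) * k := fun D => by
      rw [← ncard_sum]
      split_ifs with e
      · simpa [e] using kL D
      · simp [e]
    simp only [ncard_sum]
    rw [Finset.sum_comm]
    simp only [this]
    rw [← Finset.sum_mul, ← ncard_sum, kP]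
  rw [← Finset.add_sum_erase _ _ (Finset.mem_univ a), Finset.sum_congr rfl
    fun q hq => lP a q (Finset.ne_of_mem_erase hq).symm] at h3
  simpa only [and_self, kP, Finset.sum_const, Finset.card_erase_of_mem (Finset.mem_univ a), Finset.card_univ,
    smul_eq_mul, ← Nat.card_eq_fintype_card, hA] using h3

theorem two_orbs [Finite G] {A B : Type*} [MulAction G A] [MulAction G B] [Finite A] [Finite B] [Nontrivial A]
    [Nontrivial B] (tA : Tr2 G A) (tB : Tr2 G B) : Nat.card (Quotient (orbitRel G (A × B))) ≤ 2 := by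
  cases nonempty_fintype G
  obtain ⟨a, a', ha⟩ := exists_pair_ne A
  obtain ⟨b, b', hb⟩ := exists_pair_ne B
  have h1 := burnside (G := G) (X := A × A)
  have h2 := burnside (G := G) (X := B × B)
  have h3 := burnside (G := G) (X := A × B)
  simp only [fix_prod] at h1 h2 h3
  have h4 : 2 * ∑ g : G, {x : A | g • x = x}.ncard * {x : B | g • x = x}.ncard ≤
      ∑ g : G, {x : A | g • x = x}.ncard * {x : A | g • x = x}.ncard +
      ∑ g : G, {x : B | g • x = x}.ncard * {x : B | g • x = x}.ncard := by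
    rw [Finset.mul_sum, ← Finset.sum_add_distrib]
    exact Finset.sum_le_sum fun g _ => by nlinarith [two_mul_le_add_sq {x : A | g • x = x}.ncard {x : B | g • x = x}.ncard]
  rw [h1, h2, h3] at h4
  have := tA.orbs ha
  have := tB.orbs hb
  have : 0 < Nat.card G := Nat.card_pos
  nlinarith

theorem link_num {p k l m l' : ℕ} {u v : ℤ} (hp : p.Prime) (k0 : 0 < k) (kp : k < p) (m2 : 2 ≤ m) (mp : m + 2 ≤ p)
    (h1 : k + (p - 1) * l = k * k) (h2 : m + (p - 1) * l' = m * m) (h3 : u * m + v * (p - m) = k * k)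
    (h4 : u ^ 2 * m + v ^ 2 * (p - m) = k * (k + (k - 1) * l)) : False := by
  have p1 : 1 ≤ p := hp.one_le
  zify [p1] at h1 h2
  have n0 : (k : ℤ) - l ≠ 0 := fun e => by
    have : (k : ℤ) * (p - k) = 0 := by linear_combination h1 + (p - 1) * e
    rcases mul_eq_zero.1 this with h | h <;> omega
  have h5 : (u - v) ^ 2 * (m - l') * (p - 1) = (k - l) ^ 2 * (p - 1) := by
    linear_combination p * h4 - (u * m + v * (p - m) + k * k) * h3 - (u - v) ^ 2 * h2 + (k + k * k - l) * h1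
  have p2 : (2 : ℤ) ≤ p := by exact_mod_cast hp.two_le
  have h6 := mul_right_cancel₀ (by omega) h5
  obtain ⟨s, hs⟩ := (Int.pow_dvd_pow_iff two_ne_zero).1 (Dvd.intro _ h6)
  have c0 : u - v ≠ 0 := fun e => n0 (by rw [hs, e, zero_mul])
  have h7 : (m : ℤ) - l' = |s| ^ 2 := mul_left_cancel₀ (pow_ne_zero 2 c0) (by rw [h6, hs, sq_abs]; ring)
  have s0 := abs_nonneg s
  generalize |s| = s at h7 s0
  have s1 : s ≤ m := by nlinarith
  rcases (Nat.prime_iff_prime_int.1 hp).dvd_or_dvd (a := m - s) (b := m + s)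
    ⟨l', by linear_combination h7 - h2⟩ with h | h
  · have : (m : ℤ) - s = 0 := Int.eq_zero_of_dvd_of_nonneg_of_lt (by omega) (by omega) h
    nlinarith
  · have : (m : ℤ) + s - p = 0 := Int.eq_zero_of_abs_lt_dvd (dvd_sub h dvd_rfl) (abs_lt.2 ⟨by omega, by omega⟩)
    have h8 : (m : ℤ) * s = s * (s * (p - 1)) := by linear_combination m * this + (p - 1) * h7 + h2
    have h9 : (m : ℤ) = s * (p - 1) := mul_left_cancel₀ (show s ≠ 0 by omega) (by linear_combination h8)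
    nlinarith

theorem link [Finite G] {A B C : Type*} [MulAction G A] [MulAction G B] [MulAction G C] {p : ℕ} (hp : p.Prime)
    (hA : Nat.card A = p) (hB : Nat.card B = p) (hC : Nat.card C = p) (tA : Tr2 G A) (tB : Tr2 G B) (tC : Tr2 G C)
    {E : A → B → Prop} {E' : B → C → Prop} (i2 : ∀ (g : G) x y, E' (g • x) (g • y) ↔ E' x y) {a : A} {b : B}
    (i1 : ∀ (g : G) x y, E (g • x) (g • y) ↔ E x y) (e : {y | E a y}.ncard = {z | E' b z}.ncard)
    (k0 : ∃ z, E' b z) (kp : ∃ z, ¬ E' b z) (nf : ∀ z : C, ∃ g : G, g • a = a ∧ g • z ≠ z)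
    (nt : ∃ z w : C, ∀ g : G, g • a = a → g • z ≠ w) : False := by
  classical
  have p2 := hp.two_le
  have : Finite A := Nat.finite_of_card_ne_zero (by omega)
  have : Finite B := Nat.finite_of_card_ne_zero (by omega)
  have : Finite C := Nat.finite_of_card_ne_zero (by omega)
  have : Nontrivial A := Finite.one_lt_card_iff_nontrivial.1 (by omega)
  have : Nontrivial C := Finite.one_lt_card_iff_nontrivial.1 (by omega)
  cases nonempty_fintype B
  cases nonempty_fintype C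
  obtain ⟨z, w, zw⟩ := nt
  obtain ⟨c, c', cc⟩ := exists_pair_ne C
  obtain ⟨k, l, k1, l1, kl⟩ := des p2 hB hC tB (Tr2_tr tC cc) i2
  have i3 : ∀ (g : G) (x : A) (y : C), (∃ k : G, k • a = g • x ∧ k • z = g • y) ↔ ∃ k : G, k • a = x ∧ k • z = y :=
    fun g x y => ⟨fun ⟨k, k1, k2⟩ => ⟨g⁻¹ * k, by rw [mul_smul, k1, inv_smul_smul], by rw [mul_smul, k2, inv_smul_smul]⟩,
      fun ⟨k, k1, k2⟩ => ⟨g * k, by rw [mul_smul, k1], by rw [mul_smul, k2]⟩⟩
  obtain ⟨m, l', m1, -, ml⟩ := des p2 hA hC tA (Tr2_tr tC cc) (E := fun x y => ∃ g : G, g • a = x ∧ g • z = y) i3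
  set O := {y | ∃ g : G, g • a = a ∧ g • z = y}
  have hO : O.ncard = m := m1 a
  have wO : w ∉ O := fun ⟨g, g1, g2⟩ => zw g g1 g2
  have cO := Set.ncard_add_ncard_compl O
  have m2 : 1 < O.ncard := by
    obtain ⟨g, g1, g2⟩ := nf z
    exact (Set.one_lt_ncard (s := O)).2 ⟨_, ⟨g, g1, rfl⟩, z, ⟨1, one_smul _ _, one_smul _ _⟩, g2⟩
  have m3 : 1 < Oᶜ.ncard := by
    obtain ⟨g, g1, g2⟩ := nf w
    exact (Set.one_lt_ncard (s := Oᶜ)).2 ⟨_, fun h => wO ((i3 g a w).1 (g1.symm ▸ h)), w, wO, g2⟩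
  let f : C → ℤ := fun y => ∑ x, (if E a x then 1 else 0) * if E' x y then 1 else 0
  have fi : ∀ g : G, g • a = a → ∀ y, f (g • y) = f y := fun g hg y =>
    (Equiv.sum_comp (MulAction.toPerm g) _).symm.trans (Finset.sum_congr rfl fun x _ => by
      have : E a (g • x) ↔ E a x := by rw [← i1 g a x, hg]
      simp [this, i2])
  have fv : ∀ y, f y = if y ∈ O then f z else f w := fun y => by
    split_ifs with h
    · obtain ⟨g, g1, rfl⟩ := h
      exact fi g g1 z
    · obtain ⟨g, hg⟩ := two_class (two_orbs tA tC) (fun x : A × C => ¬ ∃ k : G, k • a = x.1 ∧ k • z = x.2)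
        (fun g x hx => mt (i3 g _ _).1 hx) (x := (a, w)) (y := (a, y)) (z := (a, z)) wO h
        (not_not.2 ⟨1, one_smul _ _, one_smul _ _⟩)
      rw [← show g • w = y from congrArg Prod.snd hg, fi g (congrArg Prod.fst hg)]
  have cs : ∀ (S : C → Prop) [DecidablePred S],
      (∑ x, if S x then (1 : ℤ) else 0) = {x | S x}.ncard := fun S _ => by rw [ncard_sum]; simp
  have cs' : (∑ x, if E a x then (1 : ℤ) else 0) = k := by rw [← k1 b, ← e, ncard_sum]; simp
  have sm : ∀ s t : ℤ, (∑ y, if y ∈ O then s else t) = s * m + t * (p - m) := fun s t => by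
    have : ∀ y, (if y ∈ O then s else t) = s * (if y ∈ O then 1 else 0) + t * if y ∈ Oᶜ then 1 else 0 := fun y => by
      by_cases h : y ∈ O <;> simp [h]
    simp only [this, Finset.sum_add_distrib, ← Finset.mul_sum, cs, Set.setOf_mem_eq, hO]
    rw [show (Oᶜ.ncard : ℤ) = p - m by omega]
  refine link_num (u := f z) (v := f w) hp (k1 b ▸ (Set.ncard_pos (Set.toFinite _)).2 k0) (k1 b ▸ hC ▸
    Set.ncard_lt_card fun h => kp.elim fun y hy => hy (h.ge trivial)) (by omega) (by omega) kl ml ?_ ?_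
  · rw [← sm]
    simp only [← fv, f]
    rw [Finset.sum_comm]
    simp only [← Finset.mul_sum, cs, k1, ← Finset.sum_mul, cs']
  · rw [← sm]
    have h1 : ∀ y, (if y ∈ O then f z ^ 2 else f w ^ 2) = ∑ x, ∑ x', ((if E a x then 1 else 0) * if E a x' then 1 else 0) *
        if E' x y ∧ E' x' y then (1 : ℤ) else 0 := fun y => by
      rw [← apply_ite (· ^ 2), ← fv, sq, Finset.sum_mul_sum]
      refine Finset.sum_congr rfl fun x _ => Finset.sum_congr rfl fun x' _ => ?_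
      by_cases h1 : E' x y <;> by_cases h2 : E' x' y <;> simp [h1, h2]
    have h2 : ∀ x x', ((if E a x then 1 else 0) * if E a x' then 1 else 0) * ({y | E' x y ∧ E' x' y}.ncard : ℤ) =
        (if E a x then 1 else 0) * ((if x' = x then (k : ℤ) - l else 0) + l * if E a x' then 1 else 0) := fun x x' => by
      by_cases h : x' = x
      · by_cases h' : E a x <;> simp [h, h', k1]
      · simp [h, l1 x x' (Ne.symm h)]
    simp only [h1]
    rw [Finset.sum_comm]
    simp only [Finset.sum_comm (s := (Finset.univ : Finset C)), ← Finset.mul_sum, cs, h2, Finset.sum_add_distrib, cs',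
      ← Finset.sum_mul, Finset.sum_ite_eq', Finset.mem_univ, if_true]
    ring

end Cfsg.Agent.ONan
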