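import Cfsg.Agent.ONan.Atk1

/-! Doubly transitive, not doubly primitive groups of degree `p² + 1`: the configuration `Cfg`, the kernel `Kr` on
the blocks, and its faithfulness on every block (`Cfg.Kfaith`). -/

set_option autoImplicit false

namespace Cfsg.Agent.ONan

open MulAction Plane

variable {G X Y : Type*} [Group G] [MulAction G X]

/-- The block of `x`. -/
def Bl (a : X) (π : X → Y) (x : X) : Set X := {y | y ≠ a ∧ π y = π x}

theorem ne_fix {g : G} {a x : X} (hg : g • a = a) (hx : x ≠ a) : g • x ≠ a :=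
  fun e => hx (smul_left_cancel g (e.trans hg.symm))

theorem inv_fix {g : G} {a : X} (hg : g • a = a) : g⁻¹ • a = a := inv_smul_eq_iff.2 hg.symm

/-- The kernel of the action on the blocks. -/
def Kr (G : Type*) [Group G] [MulAction G X] (a : X) (π : X → Y) : Subgroup G where
  carrier := {g | g • a = a ∧ ∀ x, x ≠ a → π (g • x) = π x}
  mul_mem' := fun {g k} hg hk => ⟨by rw [mul_smul, hk.1, hg.1], fun x hx => by
    rw [mul_smul, hg.2 _ (ne_fix hk.1 hx), hk.2 x hx]⟩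
  one_mem' := ⟨one_smul _ _, fun x _ => by rw [one_smul]⟩
  inv_mem' := fun {g} hg => ⟨inv_fix hg.1, fun x hx => by
    rw [← hg.2 _ (ne_fix (inv_fix hg.1) hx), smul_inv_smul]⟩

/-- The elements of the kernel fixing the block of `x` pointwise. -/
def Nb (G : Type*) [Group G] [MulAction G X] (a : X) (π : X → Y) (x : X) : Subgroup G where
  carrier := {g | g ∈ Kr G a π ∧ ∀ y ∈ Bl a π x, g • y = y}
  mul_mem' := fun {g k} hg hk => ⟨mul_mem hg.1 hk.1, fun y hy => by rw [mul_smul, hk.2 y hy, hg.2 y hy]⟩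
  one_mem' := ⟨one_mem _, fun _ _ => one_smul _ _⟩
  inv_mem' := fun {g} hg => ⟨inv_mem hg.1, fun y hy => inv_fix (hg.2 y hy)⟩

theorem cent_conj {T : Set G} {g c : G} (h : ∀ t ∈ T, g⁻¹ * t * g⁻¹⁻¹ ∈ T) (hc : c ∈ Subgroup.centralizer T) :
    g * c * g⁻¹ ∈ Subgroup.centralizer T := fun t ht => by
  have := hc _ (h t ht)
  calc t * (g * c * g⁻¹) = g * (g⁻¹ * t * g⁻¹⁻¹ * c) * g⁻¹ := by group
    _ = _ := by rw [this]; group

/-- A 2-transitive group of degree `p² + 1` with a system of blocks for the stabiliser of `a`. -/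
structure Cfg (G : Type*) [Group G] [MulAction G X] (p : ℕ) (a : X) [MulAction (stabilizer G a) Y] (π : X → Y) :
    Prop where
  pp : p.Prime
  t2 : Tr2 G X
  faith : ∀ g : G, (∀ x : X, g • x = x) → g = 1
  card : Nat.card X = p ^ 2 + 1
  cY : Nat.card Y = p
  eqv : ∀ (g : stabilizer G a) x, x ≠ a → π (g.1 • x) = g • π x
  fib : ∀ x, x ≠ a → (Bl a π x).ncard = p
  surj : ∀ y, ∃ x, x ≠ a ∧ π x = y

namespace Cfg
variable {p : ℕ} {a : X} [MulAction (stabilizer G a) Y] {π : X → Y} (h : Cfg G p a π)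
include h

theorem pi_iff {g : G} (hg : g • a = a) {x y : X} (hx : x ≠ a) (hy : y ≠ a) : π (g • x) = π (g • y) ↔ π x = π y := by
  rw [h.eqv ⟨g, hg⟩ x hx, h.eqv ⟨g, hg⟩ y hy, smul_left_cancel_iff]

theorem trA {x y : X} (hx : x ≠ a) (hy : y ≠ a) : ∃ g : G, g • a = a ∧ g • x = y := h.t2 a x a y hx.symm hy.symm

theorem orbA [Finite X] {x : X} (hx : x ≠ a) : orb (stabilizer G a) x = {a}ᶜ ∧ ({a}ᶜ : Set X).ncard = p ^ 2 := by
  refine ⟨Set.ext fun y => ⟨?_, fun hy => h.trA hx hy⟩, ?_⟩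
  · rintro ⟨g, hg, rfl⟩
    exact ne_fix hg hx
  · have := Set.ncard_add_ncard_compl ({a} : Set X)
    rw [Set.ncard_singleton, h.card] at this
    omega

theorem seedS [Finite X] {x : X} (hx : x ≠ a) : Seed G a (insert a (Bl a π x)) ∧ (insert a (Bl a π x)).ncard = p + 1 := by
  refine ⟨⟨.inl rfl, fun g hg y hy ya gy z hz => ?_⟩, by rw [Set.ncard_insert_of_notMem fun e => e.1 rfl, h.fib x hx]⟩
  rcases hz with rfl | hz
  · exact .inl hg
  · exact .inr ⟨ne_fix hg hz.1, ((h.pi_iff hg hz.1 ya).2 (hz.2.trans (hy.resolve_left ya).2.symm)).trans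
      (gy.resolve_left (ne_fix hg ya)).2⟩

theorem Kconj {g k : G} (hg : g • a = a) (hk : k ∈ Kr G a π) : g * k * g⁻¹ ∈ Kr G a π :=
  ⟨by rw [mul_smul, mul_smul, inv_fix hg, hk.1, hg], fun x hx => by
    have h1 := ne_fix (inv_fix hg) hx
    rw [mul_smul, mul_smul, (h.pi_iff hg (ne_fix hk.1 h1) h1).2 (hk.2 _ h1), smul_inv_smul]⟩

/-- The stabiliser of the block of `x`. -/
def M {x : X} (hx : x ≠ a) : Subgroup G where
  carrier := {g | g • a = a ∧ π (g • x) = π x}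
  mul_mem' := fun {g k} hg hk => ⟨by rw [mul_smul, hk.1, hg.1], by
    rw [mul_smul, (h.pi_iff hg.1 (ne_fix hk.1 hx) hx).2 hk.2, hg.2]⟩
  one_mem' := ⟨one_smul _ _, by rw [one_smul]⟩
  inv_mem' := fun {g} hg => ⟨inv_fix hg.1, by
    rw [← h.pi_iff hg.1 (ne_fix (inv_fix hg.1) hx) hx, smul_inv_smul, hg.2]⟩

theorem orbM {x : X} (hx : x ≠ a) : orb (h.M hx) x = Bl a π x := by
  refine Set.ext fun y => ⟨?_, fun hy => ?_⟩
  · rintro ⟨g, hg, rfl⟩
    exact ⟨ne_fix hg.1 hx, hg.2⟩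
  · obtain ⟨g, g1, rfl⟩ := h.trA hx hy.1
    exact ⟨g, ⟨g1, hy.2⟩, rfl⟩

variable [Finite G] [Finite X]

theorem two {x : X} (hx : x ≠ a) {J : Subgroup G} (h1 : h.M hx ≤ J) (h2 : J ≤ stabilizer G a) :
    J ≤ h.M hx ∨ ∀ y, y ≠ a → ∃ g ∈ J, g • x = y := by
  have d1 := orb_dvd (x := x) h1 fun g hg e => ⟨h2 hg, by rw [e]⟩
  have d2 := orb_dvd (x := x) h2 fun g hg e => h1 ⟨hg, by rw [e]⟩
  rw [h.orbM, h.fib x hx] at d1
  rw [(h.orbA hx).1, (h.orbA hx).2] at d2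
  obtain ⟨i, hi, e⟩ := (Nat.dvd_prime_pow h.pp).1 d2
  interval_cases i
  · exact absurd (Nat.dvd_one.1 (e ▸ d1 :)) h.pp.one_lt.ne'
  · have := Set.eq_of_subset_of_ncard_le (s := orb (h.M hx) x) (t := orb J x) (fun _ ⟨g, hg, e⟩ => ⟨g, h1 hg, e⟩)
      (by rw [h.orbM, h.fib x hx, e, pow_one])
    exact .inl fun g hg => ⟨h2 hg, (h.orbM hx ▸ this.ge ⟨g, hg, rfl⟩ : _ ∈ Bl a π x).2⟩
  · exact .inr (orb_eq (S := {a}ᶜ) (fun g hg => ne_fix (h2 hg) hx) (by rw [e, (h.orbA hx).2])).ge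

omit [Finite G] in
theorem exb : ∃ b, b ≠ a := by
  have : Nontrivial X := Finite.one_lt_card_iff_nontrivial.1 (by have := pow_pos h.pp.pos 2; have := h.card; omega)
  exact exists_ne a

theorem orbK {x : X} (hx : x ≠ a) : orb (Kr G a π) x = Bl a π x := by
  haveI := Fact.mk h.pp
  refine h.orbM hx ▸ (orb_normal (D := Kr G a π) (K := h.M hx) h.pp (fun k hk => ⟨hk.1, hk.2 x hx⟩) (fun g hg k hk => h.Kconj hg.1 hk)
    (by rw [h.orbM, h.fib x hx])).resolve_left fun hc => ?_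
  have : FaithfulSMul (stabilizer G a) Y := ⟨fun {g k} e => by
    have m : (k⁻¹ * g).1 ∈ Kr G a π := ⟨(k⁻¹ * g).2, fun y hy => by rw [h.eqv _ y hy, mul_smul, e, inv_smul_smul]⟩
    refine (inv_mul_eq_one.1 (Subtype.ext (h.faith _ fun y => ?_))).symm
    by_cases hy : y = a
    · exact hy ▸ m.1
    obtain ⟨g, g1, rfl⟩ := h.trA hx hy
    have := hc _ (h.Kconj (inv_fix g1) m) x ⟨1, one_mem _, one_smul _ _⟩
    rwa [inv_inv, mul_smul, mul_smul, inv_smul_eq_iff] at this⟩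
  refine Perm.not_sq_dvd_card (G := stabilizer G a) h.cY ?_
  rw [← orb_card _ x, (h.orbA hx).1, (h.orbA hx).2]
  exact Dvd.intro _ rfl

omit [Finite G] [Finite X] in
theorem Nconj {g k : G} {x : X} (hx : x ≠ a) (hg : g • a = a) (hk : k ∈ Nb G a π x) : g * k * g⁻¹ ∈ Nb G a π (g • x) :=
  ⟨h.Kconj hg hk.1, fun y hy => by
    rw [mul_smul, mul_smul, hk.2 _ ⟨ne_fix (inv_fix hg) hy.1, by
      rw [← h.pi_iff hg (ne_fix (inv_fix hg) hy.1) hx, smul_inv_smul, hy.2]⟩, smul_inv_smul]⟩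

omit h [Finite G] [Finite X] [MulAction (stabilizer G a) Y] in
theorem Neq {x y : X} (e : π x = π y) : Nb G a π x = Nb G a π y := by
  ext; simp only [Nb, Bl, e]

omit [Finite G] [Finite X] in
theorem eq_one {g : G} (hg : g • a = a) (h1 : ∀ x, x ≠ a → g • x = x) : g = 1 :=
  h.faith g fun x => by by_cases e : x = a; exacts [e ▸ hg, h1 x e]

theorem Ntr {x y : X} (hx : x ≠ a) (hy : y ≠ a) (e : π x ≠ π y) (ne : Nb G a π x ≠ ⊥) :
    orb (Nb G a π x) y = Bl a π y := by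
  refine h.orbK hy ▸ (orb_normal (D := Nb G a π x) (K := Kr G a π) h.pp (fun k hk => hk.1)
    (fun g hg k hk => (Neq (G := G) (hg.2 x hx)).le (h.Nconj hx hg.1 hk))
    (by rw [h.orbK hy, h.fib y hy])).resolve_left fun hc => ?_
  obtain ⟨g, g1, rfl⟩ := h.trA hx hy
  have e1 : Nb G a π x = Nb G a π (g • x) := Subgroup.eq_of_le_of_card_ge
    (fun k hk => ⟨hk.1, fun z hz => hc k hk z (h.orbK hy ▸ hz)⟩) (card_conj g (fun k hk => h.Nconj hx g1 hk)
      fun k hk => by simpa using h.Nconj hy (inv_fix g1) hk).ge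
  have nm : ∀ g : G, g • a = a → Nb G a π x = Nb G a π (g • x) → g ∈ Subgroup.normalizer (Nb G a π x : Set G) :=
    fun g hg e => Subgroup.mem_normalizer_fintype fun k hk => e ▸ h.Nconj hx hg hk
  rcases h.two hx (J := stabilizer G a ⊓ Subgroup.normalizer (Nb G a π x : Set G))
    (fun g hg => ⟨hg.1, nm g hg.1 (Neq hg.2.symm)⟩) inf_le_left with h1 | h1
  · exact e (h1 ⟨g1, nm g g1 e1⟩).2.symm
  · refine ne (eq_bot_iff.2 fun k hk => h.eq_one hk.1.1 fun z hz => ?_)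
    obtain ⟨g, hg, rfl⟩ := h1 z hz
    have := (((Subgroup.mem_inf.1 (inv_mem hg)).2 k).1 hk).2 x ⟨hx, rfl⟩
    rwa [inv_inv, mul_smul, mul_smul, inv_smul_eq_iff] at this

theorem no_supp {y : X} (hy : y ≠ a) {D : Subgroup G} (h1 : orb D y = Bl a π y)
    (h2 : ∀ d ∈ D, ∀ z, z ∉ Bl a π y → d • z = z) : False := by
  have p2 := h.pp.two_le
  have hT := h.fib y hy
  have B : ∀ g : G, g⁻¹ • a ∉ Bl a π y → ∀ u ∈ Bl a π y, g • u ∈ Bl a π (g • y) := fun g hg u hu => by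
    have n : ∀ u ∈ Bl a π y, g • u ≠ a := fun u hu e => hg (by rwa [inv_smul_eq_iff.2 e.symm])
    obtain ⟨d, hd, rfl⟩ := h1.ge hu
    refine ⟨n _ hu, by_contra fun ne => ?_⟩
    have da : (g * d * g⁻¹) • a = a := by rw [mul_smul, mul_smul, h2 d hd _ hg, smul_inv_smul]
    have gy := n y ⟨hy, rfl⟩
    have mv : ∀ z, z ≠ a → π ((g * d * g⁻¹) • z) ≠ π z → g⁻¹ • z ∈ Bl a π y := fun z _ e => by_contra fun e' =>
      e (by rw [mul_smul, mul_smul, h2 d hd _ e', smul_inv_smul])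
    have e1 : (g * d * g⁻¹) • g • y = g • d • y := by simp [mul_smul]
    have := Set.ncard_le_ncard_of_injOn (s := insert (g • d • y) (Bl a π (g • y))) (t := Bl a π y) (g⁻¹ • ·)
      (by
        rintro z (rfl | hz)
        · simpa using hu
        · exact mv z hz.1 fun e => ne (by rw [← e1, ← (h.pi_iff da hz.1 gy).2 hz.2, e, hz.2]))
      fun _ _ _ _ e => smul_left_cancel _ e
    rw [Set.ncard_insert_of_notMem fun e => ne e.2, h.fib _ gy] at this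
    omega
  obtain ⟨u, u1, u2⟩ := Set.exists_ne_of_one_lt_ncard (s := Bl a π y) (by omega) y
  obtain ⟨g, g1, g2⟩ := h.t2 y u y a u2.symm hy
  obtain ⟨c, -, hc⟩ := Set.exists_mem_notMem_of_ncard_lt_ncard (s := Bl a π y ∪ (g • ·) '' Bl a π y) (t := Set.univ) (by
    have := Set.ncard_union_le (Bl a π y) ((g • ·) '' Bl a π y)
    have := Set.ncard_image_le (s := Bl a π y) (f := (g • ·))
    rw [Set.ncard_univ, h.card]; nlinarith)
  obtain ⟨k, rfl⟩ := Tr2_tr h.t2 hy c a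
  have b1 := B k (by simpa using fun e => hc (.inl e))
  have b2 := B (k * g) (fun e => hc (.inr ⟨_, e, by simp [mul_smul]⟩)) u u1
  rw [mul_smul, mul_smul, g1, g2] at b2
  have := Set.ncard_le_ncard_of_injOn (s := insert (k • c) (Bl (k • c) π y)) (t := Bl (k • c) π (k • y)) (k • ·)
    (by
      rintro z (rfl | hz)
      exacts [b2, b1 z hz]) fun _ _ _ _ e => smul_left_cancel _ e
  rw [Set.ncard_insert_of_notMem fun e => e.1 rfl, h.fib _ (b1 y ⟨hy, rfl⟩).1] at this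
  omega

theorem Kaux : ∀ (n : ℕ) (D : Subgroup G), Nat.card D = n → (∀ k ∈ Kr G a π, ∀ d ∈ D, k * d * k⁻¹ ∈ D) →
    ∀ x, x ≠ a → D ≤ Nb G a π x → D = ⊥ := by
  intro n
  induction n using Nat.strong_induction_on with
  | _ n ih =>
  intro D hn hD x hx hle
  by_contra ne
  have DK : D ≤ Kr G a π := fun d hd => (hle hd).1
  have nN : ∀ y, y ≠ a → ∀ k ∈ Kr G a π, ∀ d ∈ Nb G a π y, k * d * k⁻¹ ∈ Nb G a π y :=
    fun y hy k hk d hd => (Neq (G := G) (hk.2 y hy)).le (h.Nconj hy hk.1 hd)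
  have k1 : ∀ y, y ≠ a → ¬ D ≤ Nb G a π y → D ⊓ Nb G a π y = ⊥ := fun y hy hc =>
    ih _ (hn ▸ lt_of_not_ge fun e => hc (inf_eq_left.1 (Subgroup.eq_of_le_of_card_ge inf_le_left e))) _ rfl
      (fun k hk d hd => ⟨hD k hk d hd.1, nN y hy k hk d hd.2⟩) y hy inf_le_right
  obtain ⟨y, hy, yD⟩ : ∃ y, y ≠ a ∧ ¬ D ≤ Nb G a π y := by
    by_contra hc
    push Not at hc
    exact ne (eq_bot_iff.2 fun d hd => h.eq_one (DK hd).1 fun y hy => (hc y hy hd).2 y ⟨hy, rfl⟩)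
  have oD : orb D y = Bl a π y := h.orbK hy ▸ (orb_normal h.pp DK hD (by rw [h.orbK hy, h.fib y hy])).resolve_left
    fun hc => yD fun d hd => ⟨DK hd, fun z hz => hc d hd z (h.orbK hy ▸ hz)⟩
  by_cases hc : ∀ z, z ≠ a → π z ≠ π y → D ≤ Nb G a π z
  · refine h.no_supp hy oD fun d hd z hz => ?_
    by_cases za : z = a
    · exact za ▸ (DK hd).1
    · exact (hc z za (fun e => hz ⟨za, e⟩) hd).2 z ⟨za, rfl⟩
  push Not at hc
  obtain ⟨z, hz, zy, zD⟩ := hc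
  have cD : Nat.card D = p := by
    obtain ⟨g, g1, rfl⟩ := h.trA hx hz
    have o := h.Ntr hz hy zy fun e => ne (eq_bot_iff.2 fun d hd => by
      simpa using e.le (h.Nconj hx g1 (hle hd)))
    have : (D ⊓ stabilizer G y : Subgroup G) = ⊥ := eq_bot_iff.2 fun d hd => (k1 y hy yD).le ⟨hd.1, DK hd.1, fun u hu => by
      obtain ⟨m, hm, rfl⟩ := o.ge hu
      have : d * m * d⁻¹ * m⁻¹ = 1 := (k1 _ hz zD).le (Subgroup.mem_inf.2 ⟨by
        simpa only [mul_assoc] using mul_mem (Subgroup.mem_inf.1 hd).1 (hD m hm.1 _ (inv_mem (Subgroup.mem_inf.1 hd).1)),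
        mul_mem (nN _ hz d (DK hd.1) m hm) (inv_mem hm)⟩)
      rw [mul_inv_eq_one, mul_inv_eq_iff_eq_mul] at this
      rw [← mul_smul, this, mul_smul, show d • y = y from hd.2]⟩
    rw [← orb_card D y, this, oD, h.fib y hy, Subgroup.card_bot, mul_one]
  haveI := Fact.mk h.pp
  have zp : ∀ c ∈ D, c ≠ 1 → ∀ d ∈ D, d ∈ Subgroup.zpowers c := fun c hc c1 =>
    (Subgroup.eq_of_le_of_card_ge (Subgroup.zpowers_le.2 hc) (by
      rw [cD, Nat.card_zpowers]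
      exact (((Nat.dvd_prime h.pp).1 (cD ▸ D.orderOf_dvd_natCard hc)).resolve_left (orderOf_eq_one_iff.not.2 c1)).ge)).ge
  let T : Set G := {t | ∃ g : G, g • a = a ∧ g⁻¹ * t * g⁻¹⁻¹ ∈ D}
  have Tc : ∀ g : G, g • a = a → ∀ t ∈ T, g⁻¹ * t * g⁻¹⁻¹ ∈ T := fun g hg t ⟨k, k1, k2⟩ =>
    ⟨g⁻¹ * k, by rw [mul_smul, k1, inv_fix hg], by simpa [mul_assoc] using k2⟩
  have TT : T ⊆ Subgroup.centralizer T := fun s ⟨g, g1, g2⟩ t ⟨k, k1, k2⟩ => by
    by_contra ne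
    have c1 : t * s * t⁻¹ * s⁻¹ ≠ 1 := fun e => ne (by rwa [mul_inv_eq_one, mul_inv_eq_iff_eq_mul] at e)
    have sK : s ∈ Kr G a π := by simpa [mul_assoc] using h.Kconj g1 (DK g2)
    have tK : t ∈ Kr G a π := by simpa [mul_assoc] using h.Kconj k1 (DK k2)
    have zz : ∀ g s c : G, g⁻¹ * s * g⁻¹⁻¹ ∈ D → g⁻¹ * c * g⁻¹⁻¹ ∈ D → c ≠ 1 → s ∈ Subgroup.zpowers c := fun g s c h1 h2 c1 => by
      obtain ⟨n, hn⟩ := zp _ h2 (conj_eq_one_iff.not.2 c1) _ h1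
      simp only [conj_zpow, mul_left_inj, mul_right_inj] at hn
      exact ⟨n, hn⟩
    obtain ⟨i, hi⟩ := zz g s _ g2 (by
      simpa [mul_assoc] using mul_mem (hD _ (h.Kconj (inv_fix g1) tK) _ g2) (inv_mem g2)) c1
    obtain ⟨j, hj⟩ := zz k t _ k2 (by
      simpa [mul_assoc] using mul_mem k2 (hD _ (h.Kconj (inv_fix k1) sK) _ (inv_mem k2))) c1
    exact ne (by simpa only [hi, hj] using zpow_mul_comm (t * s * t⁻¹ * s⁻¹) j i)
  obtain ⟨⟨d, d1⟩, d2⟩ := Subgroup.ne_bot_iff_exists_ne_one.1 ne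
  exact d2 (Subtype.ext (no_ab h.t2 h.faith h.pp h.card (x := a)
    (N := stabilizer G a ⊓ Subgroup.centralizer (Subgroup.centralizer T)) inf_le_left
    (fun g hg n hn => Subgroup.mem_inf.2 ⟨mul_mem (mul_mem hg (Subgroup.mem_inf.1 hn).1) (inv_mem hg), cent_conj
      (fun t ht => cent_conj (by simpa using Tc _ (inv_fix hg)) ht) hn.2⟩)
    (fun s hs t ht => ht.2 s (Subgroup.centralizer_le TT hs.2))
    ⟨(DK d1).1, fun c hc => (hc d ⟨1, one_smul _ _, by simpa⟩).symm⟩ hx ((hle d1).2 x ⟨hx, rfl⟩)))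

theorem Kfaith {x : X} (hx : x ≠ a) {k : G} (hk : k ∈ Kr G a π) (h1 : ∀ y ∈ Bl a π x, k • y = y) : k = 1 :=
  (h.Kaux _ (Nb G a π x) rfl (fun k hk _ hd => (Neq (G := G) (hk.2 x hx)).le (h.Nconj hx hk.1 hd)) x hx le_rfl).le
    ⟨hk, h1⟩

end Cfg

end Cfsg.Agent.ONan
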