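import Cfsg.Agent.ONan.Atk2

/-! Doubly transitive, not doubly primitive groups of degree `p² + 1`: the two cases (`Cfg.caseA`, `Cfg.caseB`) and
Atkinson's theorem (`Cfg.atk`). -/

set_option autoImplicit false

namespace Cfsg.Agent.ONan

open MulAction Plane

variable {G X Y : Type*} [Group G] [MulAction G X]

theorem orb_orbit (H : Subgroup G) (x : X) : orbit H x = orb H x :=
  Set.ext fun _ => ⟨fun ⟨g, e⟩ => ⟨g, g.2, e⟩, fun ⟨g, hg, e⟩ => ⟨⟨g, hg⟩, e⟩⟩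

theorem card_le_of_inj {H : Subgroup G} {Z : Type*} {S : Set Z} (hS : S.Finite) (f : G → Z) (h1 : ∀ g ∈ H, f g ∈ S)
    (h2 : ∀ g ∈ H, ∀ k ∈ H, f g = f k → k⁻¹ * g = 1) : Nat.card H ≤ S.ncard :=
  Set.ncard_le_ncard_of_injOn (s := (H : Set G)) f h1 (fun g hg k hk e => (inv_mul_eq_one.1 (h2 g hg k hk e)).symm) hS

theorem no_par [Finite G] [Finite X] (t2 : Tr2 G X) (faith : ∀ g : G, (∀ x : X, g • x = x) → g = 1) {m : ℕ}
    (hG : Nat.card G = 2 * m) (hm : Odd m) (m1 : m ≠ 1) (hX : 2 ∣ Nat.card X) : False := by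
  haveI := Fact.mk Nat.prime_two
  obtain ⟨P⟩ : Nonempty (Sylow 2 G) := inferInstance
  have h1 : Nat.card P = 2 := by
    rw [P.card_eq_multiplicity, hG, Nat.factorization_mul two_ne_zero hm.pos.ne', Nat.prime_two.factorization]
    simp [Nat.factorization_eq_zero_of_not_dvd hm.not_two_dvd_nat]
  have h2 := (isCyclic_of_prime_card h1).isComplement' (p := 2) (by
    rw [hG]; exact (Nat.minFac_eq_two_iff _).2 (Dvd.intro _ rfl))
  obtain ⟨N, nN, h2⟩ : ∃ N : Subgroup G, N.Normal ∧ N.IsComplement' P := ⟨_, inferInstance, h2⟩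
  have h3 : Nat.card N = m := by have := h2.card_mul; rw [h1, hG] at this; omega
  obtain ⟨⟨n, n1⟩, n2⟩ := Subgroup.ne_bot_iff_exists_ne_one.1 (show N ≠ ⊥ from fun e => m1 (by rw [← h3, e]; simp))
  obtain ⟨x, hx⟩ : ∃ x : X, n • x ≠ x := by
    by_contra hc
    push Not at hc
    exact n2 (Subtype.ext (faith n hc))
  have : orb N x = Set.univ := Set.eq_univ_of_forall fun y => by
    by_cases e : x = y
    · exact ⟨1, one_mem _, by rw [one_smul, e]⟩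
    obtain ⟨g, g1, g2⟩ := t2 x _ x y hx.symm e
    exact ⟨_, nN.conj_mem n n1 g, by rw [mul_smul, mul_smul, inv_fix g1, g2]⟩
  refine hm.not_two_dvd_nat (h3 ▸ hX.trans ?_)
  rw [← orb_card N x, this, Set.ncard_univ]
  exact Dvd.intro _ rfl

namespace Cfg
variable {p : ℕ} {a : X} [MulAction (stabilizer G a) Y] {π : X → Y} (h : Cfg G p a π) [Finite G] [Finite X]
include h

theorem cardO {x : X} (hx : x ≠ a) : Nat.card (orbit (Kr G a π) x) = p := by
  rw [orb_orbit, h.orbK hx]; exact h.fib x hx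

theorem intr {x y : X} (hx : x ≠ a) (hy : y ≠ a) : ∃ w ∈ Bl a π y, ∀ k ∈ Kr G a π, k • x = x → k • y ≠ w := by
  haveI := Fact.mk h.pp
  by_contra hc
  push Not at hc
  have : FaithfulSMul (Kr G a π) (orbit (Kr G a π) x) := ⟨fun {g k} e =>
    (inv_mul_eq_one.1 (Subtype.ext (h.Kfaith hx (k⁻¹ * g).2 fun y hy => congrArg Subtype.val
      (show (k⁻¹ * g) • (⟨y, by rwa [orb_orbit, h.orbK hx]⟩ : orbit (Kr G a π) x) = ⟨y, by rwa [orb_orbit, h.orbK hx]⟩ by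
        rw [mul_smul, e, inv_smul_smul])))).symm⟩
  refine Perm.not_sq_dvd_card (G := Kr G a π) (h.cardO hx) ?_
  have e : orb (Kr G a π ⊓ stabilizer G x) y = Bl a π y := Set.ext fun w => ⟨fun ⟨k, hk, e⟩ =>
    h.orbK hy ▸ ⟨k, hk.1, e⟩, fun hw => (hc w hw).imp fun k hk => ⟨⟨hk.1, hk.2.1⟩, hk.2.2⟩⟩
  rw [← orb_card _ x, ← orb_card (_ ⊓ _) y, e, h.orbK hx, h.fib x hx, h.fib y hy, ← mul_assoc, sq]
  exact Dvd.intro _ rfl

theorem caseB (p2 : p ≠ 2) (T : ∀ x, x ≠ a → Tr2 (Kr G a π) (orbit (Kr G a π) x)) : False := by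
  have p3 : 3 ≤ p := by have := h.pp.two_le; omega
  obtain ⟨b, hb⟩ := h.exb
  let F : X → Set X := fun x => {u | ∀ k ∈ Kr G a π, k • x = x → k • u = u}
  have f1 : ∀ x u, x ≠ a → u ≠ a → u ∈ F x → F u = F x := fun x u hx hu e => by
    have e1 : (Kr G a π ⊓ stabilizer G x : Subgroup G) = Kr G a π ⊓ stabilizer G u :=
      Subgroup.eq_of_le_of_card_ge (fun k hk => ⟨hk.1, e k hk.1 hk.2⟩) (Nat.le_of_mul_le_mul_left (c := p) (by
        have h1 := orb_card (Kr G a π) x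
        have h2 := orb_card (Kr G a π) u
        rw [h.orbK hx, h.fib x hx] at h1
        rw [h.orbK hu, h.fib u hu] at h2
        omega) h.pp.pos)
    exact Set.ext fun v => ⟨fun hv k hk e => hv k hk (e1.le ⟨hk, e⟩).2, fun hv k hk e => hv k hk (e1.ge ⟨hk, e⟩).2⟩
  have f2 : ∀ g : G, g • a = a → ∀ x u, u ∈ F x → g • u ∈ F (g • x) := fun g hg x u hu k hk e => by
    have := hu _ (h.Kconj (inv_fix hg) hk) (by rw [inv_inv, mul_smul, mul_smul, e, inv_smul_smul])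
    rwa [inv_inv, mul_smul, mul_smul, inv_smul_eq_iff] at this
  have f3 : ∀ x, x ∈ F x := fun x k _ e => e
  have tr : ∀ x, x ≠ a → ∀ u ∈ Bl a π x, ∀ v ∈ Bl a π x, u ≠ x → v ≠ x → ∃ k ∈ Kr G a π, k • x = x ∧ k • u = v :=
    fun x hx u hu v hv ux vx => by
      obtain ⟨k, k1, k2⟩ := T x hx ⟨x, mem_orbit_self x⟩ ⟨u, by rwa [orb_orbit, h.orbK hx]⟩ ⟨x, mem_orbit_self x⟩
        ⟨v, by rwa [orb_orbit, h.orbK hx]⟩ (fun e => ux (congrArg Subtype.val e).symm) fun e => vx (congrArg Subtype.val e).symm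
      exact ⟨k, k.2, congrArg Subtype.val k1, congrArg Subtype.val k2⟩
  let J : Subgroup G :=
    { carrier := {g | g • a = a ∧ ∃ u ∈ F b, u ≠ a ∧ π u = π (g • b)}
      mul_mem' := fun {g k} ⟨g1, u, u1, u2, u3⟩ ⟨k1, v, v1, v2, v3⟩ => by
        obtain ⟨m, m1, m2⟩ := (h.orbK (ne_fix g1 hb)).ge ⟨u2, u3⟩
        have gv := ne_fix g1 v2
        refine ⟨by rw [mul_smul, k1, g1], m • g • v, ?_, ne_fix m1.1 gv, ?_⟩
        · rw [← f1 b u hb u2 u1, ← m2]; exact f2 m m1.1 _ _ (f2 g g1 _ _ v1)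
        · rw [m1.2 _ gv, mul_smul, h.pi_iff g1 v2 (ne_fix k1 hb), v3]
      one_mem' := ⟨one_smul _ _, b, f3 b, hb, by rw [one_smul]⟩
      inv_mem' := fun {g} ⟨g1, u, u1, u2, u3⟩ => by
        obtain ⟨m, m1, m2⟩ := (h.orbK (ne_fix g1 hb)).ge ⟨u2, u3⟩
        have i1 := inv_fix g1
        have mb := ne_fix (inv_fix m1.1) hb
        refine ⟨i1, g⁻¹ • m⁻¹ • b, ?_, ne_fix i1 mb, (h.pi_iff i1 mb hb).2 ((inv_mem m1).2 b hb)⟩
        simpa [← m2] using f2 _ i1 _ _ (f2 _ (inv_fix m1.1) _ _ (f1 b u hb u2 u1 ▸ f3 b : b ∈ F u)) }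
  rcases h.two hb (J := J) (fun g hg => ⟨hg.1, b, f3 b, hb, hg.2.symm⟩) (fun g hg => hg.1) with hJ | hJ
  · obtain ⟨U, U1, U2, r, r1, r2⟩ := exists_syl (stabilizer G a) h.pp
    obtain ⟨y, y1, y2⟩ := Set.exists_mem_notMem_of_ncard_lt_ncard (s := Bl a π b) (t := {a}ᶜ)
      (by rw [h.fib b hb, (h.orbA hb).2]; nlinarith)
    obtain ⟨α, α1, rfl⟩ := (orb_eq (S := {a}ᶜ) (fun g hg => ne_fix (U1 hg) hb) ((h.orbA hb).2 ▸ pow_dvd_orb U1 r1 r2 b
      (by rw [(h.orbA hb).1, (h.orbA hb).2]))).ge y1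
    have αa : α • a = a := U1 α1
    have α2 : α * α ∉ h.M hb := fun e => by
      obtain ⟨k, hk⟩ := U2 ⟨α, α1⟩
      obtain ⟨j, hj⟩ := (h.pp.odd_of_ne_two p2).pow (n := k)
      have e1 : α ^ (2 * j + 1) = 1 := hj ▸ congrArg Subtype.val hk
      rw [pow_succ, pow_mul, sq] at e1
      exact y2 ⟨y1, (eq_inv_of_mul_eq_one_right e1 ▸ inv_mem (pow_mem e j) : α ∈ h.M hb).2⟩
    have c1 : α • b ≠ a := y1
    have c2 := ne_fix αa c1
    have mo : ∀ x, x ≠ a → ∀ z : orbit (Kr G a π) x, z.1 ∈ Bl a π x := fun x hx z => by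
      rw [← h.orbK hx, ← orb_orbit]; exact z.2
    have om : ∀ x, x ≠ a → ∀ z ∈ Bl a π x, z ∈ orbit (Kr G a π) x := fun x hx z hz => by rwa [orb_orbit, h.orbK hx]
    refine link h.pp (h.cardO hb) (h.cardO c1) (h.cardO c2) (T _ hb) (T _ c1) (T _ c2)
      (E := fun x y => ∃ k ∈ Kr G a π, k • b = x ∧ k • α • b = y)
      (E' := fun y z => ∃ k ∈ Kr G a π, α • k • b = y ∧ α • k • α • b = z) (fun g x y => ⟨fun ⟨k, k1, k2, k3⟩ => ?_,
        fun ⟨k, k1, k2, k3⟩ => ?_⟩) (a := ⟨b, mem_orbit_self b⟩) (b := ⟨_, mem_orbit_self _⟩)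
      (fun g x y => ⟨fun ⟨k, k1, k2, k3⟩ => ?_, fun ⟨k, k1, k2, k3⟩ => ?_⟩) ?_
      ⟨⟨_, mem_orbit_self _⟩, 1, one_mem _, by simp⟩ ?_ (fun z => ?_) ?_
    · exact ⟨α⁻¹ * g.1⁻¹ * α⁻¹⁻¹ * k, mul_mem (h.Kconj (inv_fix αa) (inv_mem g.2)) k1,
        by simp [mul_smul, k2, Subgroup.smul_def], by simp [mul_smul, k3, Subgroup.smul_def]⟩
    · exact ⟨α⁻¹ * g.1 * α⁻¹⁻¹ * k, mul_mem (h.Kconj (inv_fix αa) g.2) k1,
        by simp [mul_smul, k2, Subgroup.smul_def], by simp [mul_smul, k3, Subgroup.smul_def]⟩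
    · exact ⟨g.1⁻¹ * k, mul_mem (inv_mem g.2) k1, by simp [mul_smul, k2, Subgroup.smul_def],
        by simp [mul_smul, k3, Subgroup.smul_def]⟩
    · exact ⟨g.1 * k, mul_mem g.2 k1, by simp [mul_smul, k2, Subgroup.smul_def], by simp [mul_smul, k3, Subgroup.smul_def]⟩
    · refine Set.ncard_congr (fun y _ => ⟨α • y.1, om _ c2 _ ⟨ne_fix αa (mo _ c1 y).1,
        (h.pi_iff αa (mo _ c1 y).1 c1).2 (mo _ c1 y).2⟩⟩) (fun y ⟨k, k1, k2, k3⟩ => ⟨k, k1, by rw [k2], by rw [k3]⟩)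
        (fun _ _ _ _ e => Subtype.ext (smul_left_cancel α (congrArg Subtype.val e))) fun z ⟨k, k1, k2, k3⟩ =>
          ⟨⟨k • α • b, ⟨k, k1⟩, rfl⟩, ⟨k, k1, smul_left_cancel α k2, rfl⟩, Subtype.ext k3⟩
    · obtain ⟨w, w1, w2⟩ := h.intr hb c1
      exact ⟨⟨α • w, om _ c2 _ ⟨ne_fix αa w1.1, (h.pi_iff αa w1.1 c1).2 w1.2⟩⟩, fun ⟨k, k1, k2, k3⟩ =>
        w2 k k1 (smul_left_cancel α k2) (smul_left_cancel α k3)⟩
    · by_contra hc
      push Not at hc
      exact α2 (hJ ⟨by rw [mul_smul, αa, αa], z, fun k hk e => congrArg Subtype.val (hc ⟨k, hk⟩ (Subtype.ext e)),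
        (mo _ c2 z).1, by rw [mul_smul]; exact (mo _ c2 z).2⟩)
    · obtain ⟨w, w1, w2⟩ := h.intr hb c2
      exact ⟨⟨_, mem_orbit_self _⟩, ⟨w, om _ c2 w w1⟩, fun k e1 e2 =>
        w2 k k.2 (congrArg Subtype.val e1) (congrArg Subtype.val e2)⟩
  have ex : ∀ y, y ≠ a → ∃ u ∈ F b, u ≠ a ∧ π u = π y := fun y hy => by
    obtain ⟨g, hg, rfl⟩ := hJ y hy
    exact hg.2
  have aF : a ∈ F b := fun k hk _ => hk.1
  have cF : (F b).ncard = p + 1 := by
    rw [← Set.ncard_diff_singleton_add_one aF, ← h.cY, ← Set.ncard_univ]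
    refine congrArg (· + 1) (Set.ncard_congr (fun u _ => π u) (fun _ _ => trivial) (fun u v hu hv e => by_contra fun ne => ?_)
      fun y _ => ?_)
    · obtain ⟨w, w1, w2⟩ := Set.exists_mem_notMem_of_ncard_lt_ncard (s := {u, v}) (t := Bl a π u)
        (by rw [h.fib u hu.2, Set.ncard_pair ne]; omega)
      simp only [Set.mem_insert_iff, Set.mem_singleton_iff, not_or] at w2
      obtain ⟨k, k1, k2, k3⟩ := tr u hu.2 v ⟨hv.2, e.symm⟩ w w1 (Ne.symm ne) w2.1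
      exact w2.2 (k3.symm.trans ((f1 b u hb hu.2 hu.1).ge hv.1 k k1 k2))
    · obtain ⟨x, hx, rfl⟩ := h.surj y
      obtain ⟨u, u1, u2, u3⟩ := ex x hx
      exact ⟨u, ⟨u1, u2⟩, u3⟩
  have sF : Seed G a (F b) := ⟨aF, fun g hg x hx xa gx y hy => by
    rw [← f1 b _ hb (ne_fix hg xa) gx]; exact f2 g hg _ _ ((f1 b x hb xa hx).ge hy)⟩
  obtain ⟨w, w1, w2⟩ := h.t2 a b b a hb.symm hb
  have sT := w1 ▸ sF.smul w
  have cT : {x | w⁻¹ • x ∈ F b}.ncard = p + 1 := (cnt w fun x => by rw [inv_smul_smul]; rfl).symm.trans cF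
  have fin : ∀ S, Seed G a S → S.ncard = p + 1 → S ≠ {x | w⁻¹ • x ∈ F b} := fun S h1 h2 e =>
    no_line h.t2 h.pp.two_le h.card hb.symm h1 (e ▸ sT) h2
  obtain ⟨x, x1, x2⟩ : ∃ x, w⁻¹ • x ∈ F b ∧ x ∉ F b := by
    by_contra hc
    push Not at hc
    exact fin _ sF cF (Set.eq_of_subset_of_ncard_le hc (cF.trans cT.symm).le).symm
  have xa : x ≠ a := fun e => x2 (e ▸ aF)
  obtain ⟨f, f4, f5, f6⟩ := ex x xa
  have wa : w⁻¹ • a = b := inv_smul_eq_iff.2 w2.symm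
  have wb : w⁻¹ • b = a := inv_smul_eq_iff.2 w1.symm
  have sub : ∀ v ∈ Bl a π f, v ≠ f → w⁻¹ • v ∈ F b := fun v hv vf => by
    obtain ⟨k, k1, k2, rfl⟩ := tr f f5 x ⟨xa, f6.symm⟩ v hv (fun e => x2 (e ▸ f4)) vf
    have kb : k • b = b := (f1 b f hb f5 f4).ge (f3 b) k k1 k2
    have := f2 (w⁻¹ * k * w) (by simp [mul_smul, w1, kb, wb]) _ _ x1
    simpa [mul_smul, w2, k1.1, wa] using this
  have fT : w⁻¹ • f ∈ F b := fun k hk kb => by
    have ua : (w * k * w⁻¹) • a = a := by simp [mul_smul, wa, kb, w2]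
    have uT : ∀ v, w⁻¹ • v ∈ F b → (w * k * w⁻¹) • v = v := fun v hv => by
      rw [mul_smul, mul_smul, hv k hk kb, smul_inv_smul]
    have : (w * k * w⁻¹) • f = f := by_contra fun ne => ne (smul_left_cancel _ (uT _ (sub _ ⟨ne_fix ua f5, by
      rw [(h.pi_iff ua f5 xa).2 f6, uT x x1, f6]⟩ ne)))
    rwa [mul_smul, mul_smul, ← eq_inv_smul_iff] at this
  refine fin _ (h.seedS f5).1 (h.seedS f5).2 (Set.eq_of_subset_of_ncard_le ?_ (cT.trans (h.seedS f5).2.symm).le)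
  rintro v (rfl | hv)
  · exact wa ▸ f3 b
  · by_cases e : v = f
    exacts [e ▸ fT, sub v hv e]

omit [Finite G] in
theorem cardG {b : X} (hb : b ≠ a) [Finite G] :
    Nat.card G = (p ^ 2 + 1) * p ^ 2 * Nat.card (stabilizer G a ⊓ stabilizer G b : Subgroup G) := by
  rw [← h.t2.card_stab hb.symm, h.card]
  congr 1
  rw [mul_add (p ^ 2 + 1), mul_one, Nat.add_sub_cancel]

/-- The end of the argument, once the point stabiliser has a regular normal subgroup. -/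
theorem kill {P : Subgroup G} (P1 : Nat.card P = p ^ 2) (P2 : P ≤ stabilizer G a)
    (P3 : ∀ g : G, g • a = a → ∀ r ∈ P, g * r * g⁻¹ ∈ P) {b : X} (hb : b ≠ a) (P4 : orb P b = {a}ᶜ) :
    (∀ u : G, u • a = a → u • b = b → u ≠ 1 → ∀ x, x ≠ a → x ≠ b → u • x = x → {y : X | u • y = y}.ncard = p + 1) ∧
    ∀ u : G, u • a = a → u • b = b → u ≠ 1 → ∀ x, x ≠ a → x ≠ b → u • x = x →
      (∀ g : G, g • a = a → g • b = b → ∀ y : X, u • y = y → u • g • y = g • y) → False := by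
  have st : (P ⊓ stabilizer G b : Subgroup G) = ⊥ := by
    have := orb_card P b
    rw [P4, (h.orbA hb).2, P1] at this
    exact Subgroup.card_eq_one.1 (Nat.eq_of_mul_eq_mul_left (pow_pos h.pp.pos 2) (this.trans (mul_one _).symm))
  have cen : ∀ u : G, u • a = a → u • b = b → ∀ y, y ≠ a → u • y = y → ∃ r ∈ P, r * u = u * r ∧ r • b = y :=
    fun u ua ub y hy e => by
      obtain ⟨r, r1, rfl⟩ := P4.ge hy
      have : r⁻¹ * (u * r * u⁻¹) = 1 := st.le (Subgroup.mem_inf.2 ⟨mul_mem (inv_mem r1) (P3 u ua r r1), by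
        rw [mem_stabilizer_iff, mul_smul, mul_smul, mul_smul, inv_fix ub, e, inv_smul_smul]⟩)
      exact ⟨r, r1, by rw [inv_mul_eq_one, eq_mul_inv_iff_mul_eq] at this; exact this, rfl⟩
  have k1 : ∀ u : G, u • a = a → u • b = b → u ≠ 1 → ∀ x, x ≠ a → x ≠ b → u • x = x →
      {y : X | u • y = y}.ncard = p + 1 := fun u ua ub u1 x xa xb ux => by
    have e : orb (P ⊓ Subgroup.centralizer {u}) b = {y : X | u • y = y} \ {a} := Set.ext fun y => ⟨by
      rintro ⟨r, hr, rfl⟩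
      exact ⟨show u • r • b = _ by rw [← mul_smul, ← Subgroup.mem_centralizer_singleton_iff.1 hr.2, mul_smul, ub],
        ne_fix (P2 hr.1) hb⟩, fun hy => (cen u ua ub y hy.2 hy.1).imp fun r hr =>
          ⟨⟨hr.1, Subgroup.mem_centralizer_singleton_iff.2 hr.2.1⟩, hr.2.2⟩⟩
    have d := orb_dvd (x := b) (inf_le_left : P ⊓ Subgroup.centralizer {u} ≤ P) fun g hg e => by
      rw [show g = 1 from st.le ⟨hg, e⟩]; exact one_mem _
    rw [e, P4, (h.orbA hb).2] at d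
    rw [← Set.ncard_diff_singleton_add_one (s := {y : X | u • y = y}) ua]
    obtain ⟨i, hi, e'⟩ := (Nat.dvd_prime_pow h.pp).1 d
    interval_cases i
    · obtain ⟨z, hz⟩ := Set.ncard_eq_one.1 e'
      exact absurd ((hz.le ⟨ux, xa⟩).trans (hz.le ⟨ub, hb⟩).symm) xb
    · rw [e', pow_one]
    · exact absurd (h.eq_one ua fun y hy => ((Set.eq_of_subset_of_ncard_le (s := {y : X | u • y = y} \ {a})
        (t := {a}ᶜ) (fun _ hy => hy.2) (by rw [e', (h.orbA hb).2])).ge hy).1) u1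
  have k2 : ∀ u : G, u • a = a → u • b = b → (∀ g : G, g • a = a → g • b = b → ∀ y : X, u • y = y → u • g • y = g • y) →
      Seed G a {y : X | u • y = y} := fun u ua ub H => ⟨ua, fun g ga x hx xa gx y hy => by
    obtain ⟨r, r1, r2, rfl⟩ := cen u ua ub x xa hx
    obtain ⟨s, s1, s2, s3⟩ := cen u ua ub _ (ne_fix ga xa) gx
    have := H (s⁻¹ * g * r) (by rw [mul_smul, mul_smul, show r • a = a from P2 r1, ga, inv_fix (P2 s1)])
      (by rw [mul_smul, mul_smul, ← s3, inv_smul_smul]) (r⁻¹ • y) (by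
        rw [eq_inv_smul_iff, ← mul_smul, r2, mul_smul, smul_inv_smul]; exact hy)
    simp only [mul_smul, smul_inv_smul] at this
    rwa [eq_inv_smul_iff, ← mul_smul, s2, mul_smul, smul_inv_smul] at this⟩
  refine ⟨k1, fun u ua ub u1 x xa xb ux H => ?_⟩
  obtain ⟨w, w1, w2⟩ := h.t2 a b b a hb.symm hb
  have wa : w⁻¹ • a = b := inv_smul_eq_iff.2 w2.symm
  have wb : w⁻¹ • b = a := inv_smul_eq_iff.2 w1.symm
  have e : ∀ y : X, (w * u * w⁻¹) • y = y ↔ u • w⁻¹ • y = w⁻¹ • y := fun y => by rw [mul_smul, mul_smul, ← eq_inv_smul_iff]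
  have s1 := k2 (w * u * w⁻¹) ((e a).2 (wa ▸ ub)) ((e b).2 (wb ▸ ua)) fun g ga gb y hy => (e _).2 (by
    simpa [mul_smul] using H (w⁻¹ * g * w) (by simp [mul_smul, w1, gb, wb]) (by simp [mul_smul, w2, ga, wa]) _ ((e y).1 hy))
  simp only [e] at s1
  exact no_line h.t2 h.pp.two_le h.card hb.symm s1 (w1 ▸ (k2 u ua ub H).smul w)
    ((cnt w fun x => by rw [inv_smul_smul]).symm.trans (k1 u ua ub u1 x xa xb ux))

theorem caseA (p2 : p ≠ 2) {b : X} (hb : b ≠ a) (hK : Nat.card (Kr G a π ⊓ stabilizer G b : Subgroup G) < p) : False := by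
  haveI := Fact.mk h.pp
  have p3 : 3 ≤ p := by have := h.pp.two_le; omega
  obtain ⟨Q, Q1, Q2⟩ := norm_syl (C := Kr G a π) (k := 1) h.pp (by
    rw [← orb_card _ b, h.orbK hb, h.fib b hb, pow_one]) Nat.card_pos hK
  rw [pow_one] at Q1 Q2
  have QK : Q ≤ Kr G a π := fun q hq => ((Q2 q).1 hq).1
  have Qn : ∀ g : G, g • a = a → ∀ q ∈ Q, g * q * g⁻¹ ∈ Q := fun g hg q hq =>
    (Q2 _).2 ⟨h.Kconj hg (QK hq), by rw [conj_pow, ((Q2 q).1 hq).2, mul_one, mul_inv_cancel]⟩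
  obtain ⟨⟨c, c1⟩, c2⟩ := Subgroup.ne_bot_iff_exists_ne_one.1 (show Q ≠ ⊥ from fun e => by
    rw [e, Subgroup.card_bot] at Q1; omega)
  have c3 : c ≠ 1 := fun e => c2 (Subtype.ext e)
  have zp : Subgroup.zpowers c = Q := Subgroup.eq_of_le_of_card_ge (Subgroup.zpowers_le.2 c1) (by
    rw [Q1, Nat.card_zpowers]
    exact (((Nat.dvd_prime h.pp).1 (Q1 ▸ Q.orderOf_dvd_natCard c1)).resolve_left (orderOf_eq_one_iff.not.2 c3)).ge)
  have oQ : orb Q b = Bl a π b := h.orbK hb ▸ (orb_normal h.pp QK (fun k hk => Qn k hk.1)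
    (by rw [h.orbK hb, h.fib b hb])).resolve_left fun hc => c3 (h.Kfaith hb (QK c1) fun y hy => hc c c1 y (h.orbK hb ▸ hy))
  have cQ : ((Q : Set G) \ {1}).ncard = p - 1 := by
    rw [Set.ncard_diff_singleton_of_mem Q.one_mem]; exact congrArg (· - 1) Q1
  have mQ : ∀ g : G, g • a = a → g * c * g⁻¹ ∈ (Q : Set G) \ {1} := fun g hg => ⟨Qn g hg c c1, conj_eq_one_iff.not.2 c3⟩
  set C : Subgroup G := stabilizer G a ⊓ Subgroup.centralizer {c} with hC
  have mC : ∀ g : G, g ∈ C ↔ g • a = a ∧ g * c = c * g := fun g =>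
    and_congr_right fun _ => Subgroup.mem_centralizer_singleton_iff
  have cq : ∀ g ∈ C, ∀ q ∈ Q, g * q = q * g := fun g hg q hq => by
    obtain ⟨n, rfl⟩ := zp.ge hq
    exact Commute.zpow_right ((mC g).1 hg).2 n
  have cj : ∀ g k : G, g • a = a → k • a = a → g * c * g⁻¹ = k * c * k⁻¹ → k⁻¹ * g ∈ C := fun g k hg hk e =>
    (mC _).2 ⟨by rw [mul_smul, hg, inv_fix hk], by
      calc k⁻¹ * g * c = k⁻¹ * (g * c * g⁻¹) * g := by group
        _ = _ := by rw [e]; group⟩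
  have fB : ∀ g ∈ C, g • b = b → ∀ y ∈ Bl a π b, g • y = y := fun g hg e y hy => by
    obtain ⟨q, q1, rfl⟩ := oQ.ge hy
    rw [← mul_smul, cq g hg q q1, mul_smul, e]
  have oC : orb C b = {a}ᶜ := by
    have h1 := conj_card (stabilizer G a) c
    have h2 := Set.ncard_le_ncard (s := {x | ∃ g ∈ stabilizer G a, g * c * g⁻¹ = x}) (t := (Q : Set G) \ {1})
      (by rintro _ ⟨g, hg, rfl⟩; exact mQ g hg)
    have h3 : 0 < {x | ∃ g ∈ stabilizer G a, g * c * g⁻¹ = x}.ncard :=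
      (Set.ncard_pos (Set.toFinite _)).2 ⟨_, 1, one_mem _, rfl⟩
    exact orb_eq (fun g hg => ne_fix hg.1 hb) ((h.orbA hb).2 ▸ pow_dvd_orb inf_le_left (h1.symm.trans (mul_comm _ _))
      ((Nat.Prime.coprime_iff_not_dvd h.pp).2 (Nat.not_dvd_of_pos_of_lt h3 (by omega))) b
      (by rw [(h.orbA hb).1, (h.orbA hb).2]))
  obtain ⟨w, w1, w2⟩ := h.t2 a b b a hb.symm hb
  have wa : w⁻¹ • a = b := inv_smul_eq_iff.2 w2.symm
  have wb : w⁻¹ • b = a := inv_smul_eq_iff.2 w1.symm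
  have hm : Nat.card (C ⊓ stabilizer G b : Subgroup G) < p := by
    letI : MulAction C Y := MulAction.compHom Y (Subgroup.inclusion (inf_le_left : C ≤ stabilizer G a))
    have ev : ∀ (g : C) x, x ≠ a → g • π x = π (g.1 • x) := fun g x hx => (h.eqv ⟨g.1, g.2.1⟩ x hx).symm
    have : IsPretransitive C Y := ⟨fun y z => by
      obtain ⟨y, hy, rfl⟩ := h.surj y
      obtain ⟨z, hz, rfl⟩ := h.surj z
      obtain ⟨g, g1, rfl⟩ := oC.ge hy
      obtain ⟨k, k1, rfl⟩ := oC.ge hz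
      exact ⟨⟨k * g⁻¹, mul_mem k1 (inv_mem g1)⟩, by rw [ev _ _ hy, mul_smul, inv_smul_smul]⟩⟩
    have : Finite Y := Nat.finite_of_card_ne_zero (by rw [h.cY]; omega)
    rcases pd_dich (G := C) h.pp h.cY with T | T
    · have sS := h.seedS hb
      have cT : {x | w⁻¹ • x ∈ insert a (Bl a π b)}.ncard = p + 1 := (cnt w fun x => by rw [inv_smul_smul]; rfl).symm.trans sS.2
      obtain ⟨x, x1, x2⟩ : ∃ x, w⁻¹ • x ∈ insert a (Bl a π b) ∧ x ∉ insert a (Bl a π b) := by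
        by_contra hc
        push Not at hc
        exact no_line h.t2 h.pp.two_le h.card hb.symm sS.1
          (Set.eq_of_subset_of_ncard_le (s := {x | w⁻¹ • x ∈ insert a (Bl a π b)}) hc (sS.2.trans cT.symm).le ▸ w1 ▸ sS.1.smul w) sS.2
      have xa : x ≠ a := fun e => x2 (.inl e)
      have uK : ∀ g ∈ C, g • b = b → w * g * w⁻¹ ∈ Kr G a π := fun g hg gb => by
        have ua : (w * g * w⁻¹) • a = a := by simp [mul_smul, wa, gb, w2]
        have uT : ∀ v, w⁻¹ • v ∈ insert a (Bl a π b) → (w * g * w⁻¹) • v = v := fun v hv => by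
          rw [mul_smul, mul_smul, hv.elim (fun e => e ▸ hg.1) (fB g hg gb _), smul_inv_smul]
        refine ⟨ua, fun y hy => ?_⟩
        by_cases e : π b = π y
        · rw [← (h.pi_iff ua hb hy).2 e, uT b (.inl wb), e]
        obtain ⟨k, k1, k2⟩ := T (π b) (π x) (π b) (π y) (fun e => x2 (.inr ⟨xa, e.symm⟩)) e
        rw [ev _ _ hb] at k1
        rw [ev _ _ xa] at k2
        obtain ⟨q, q1, q2⟩ := oQ.ge ⟨ne_fix k.2.1 hb, k1⟩
        have qa := inv_fix (QK q1).1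
        have kx := ne_fix k.2.1 xa
        have e1 : π (q⁻¹ • k.1 • x) = π y := ((inv_mem (QK q1)).2 _ kx).trans k2
        have := sS.1.2 (w⁻¹ * (q⁻¹ * k) * w) (by simp [mul_smul, w1, ← q2, wb]) b (.inr ⟨hb, rfl⟩) hb
          (by simp [mul_smul, w2, show k.1 • a = a from k.2.1, qa, wa, Bl, hb]) _ x1
        rw [← (h.pi_iff ua (ne_fix qa kx) hy).2 e1, uT _ (by simpa [mul_smul] using this), e1]
      refine (card_le_of_inj (H := C ⊓ stabilizer G b) (Set.toFinite _) (fun g => w * g * w⁻¹ * c * (w * g * w⁻¹)⁻¹)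
        (fun g hg => mQ _ (uK g hg.1 hg.2).1) fun g hg k hk e => ?_).trans_lt (by omega)
      have m1 := mul_mem (inv_mem (uK k hk.1 hk.2)) (uK g hg.1 hg.2)
      have := h.Kfaith hb m1 (fB _ (cj _ _ (uK g hg.1 hg.2).1 (uK k hk.1 hk.2).1 e) (by
        simp [mul_smul, wb, show g • a = a from hg.1.1, inv_fix (show k • a = a from hk.1.1), w1]))
      exact conj_eq_one_iff.1 (show w * (k⁻¹ * g) * w⁻¹ = 1 by rw [← this]; group)
    · obtain ⟨y, y1, y2⟩ := Set.exists_mem_notMem_of_ncard_lt_ncard (s := Bl a π b) (t := {a}ᶜ)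
        (by rw [h.fib b hb, (h.orbA hb).2]; nlinarith)
      have yb : π b ≠ π y := fun e => y2 ⟨y1, e.symm⟩
      have cY := Set.ncard_add_ncard_compl {π b}
      rw [Set.ncard_singleton, h.cY] at cY
      refine (card_le_of_inj (H := C ⊓ stabilizer G b) (S := {π b}ᶜ) (Set.toFinite _) (fun g => π (g • y))
        (fun g hg e => yb ((h.pi_iff hg.1.1 hb y1).1 (by rw [show g • b = b from hg.2]; exact e.symm))) fun g hg k hk e => ?_).trans_lt (by omega)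
      obtain ⟨m1, m2⟩ := Subgroup.mem_inf.1 (mul_mem (inv_mem hk) hg)
      refine h.Kfaith hb ⟨m1.1, fun z hz => (ev ⟨_, m1⟩ z hz).symm.trans (T _ _ _ yb ((ev ⟨_, m1⟩ b hb).trans
        (congrArg π m2)) ((ev ⟨_, m1⟩ y y1).trans ?_) _)⟩ (fB _ m1 m2)
      rw [← h.pi_iff hk.1.1 (ne_fix m1.1 y1) y1, ← mul_smul, mul_inv_cancel_left]; exact e
  have cC : Nat.card C = p ^ 2 * Nat.card (C ⊓ stabilizer G b : Subgroup G) := by
    rw [← orb_card C b, oC, (h.orbA hb).2]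
  obtain ⟨P, P1, P2⟩ := norm_syl h.pp cC Nat.card_pos hm
  have PC : P ≤ C := fun r hr => ((P2 r).1 hr).1
  obtain ⟨k1, k2⟩ := h.kill P1 (fun r hr => (PC hr).1) (fun g hg r hr => (P2 _).2 ⟨(mC _).2 ⟨by
      rw [mul_smul, mul_smul, inv_fix hg, show r • a = a from (PC hr).1, hg], by
      calc g * r * g⁻¹ * c = g * (r * (g⁻¹ * c * g⁻¹⁻¹)) * g⁻¹ := by group
        _ = _ := by rw [cq r (PC hr) _ (Qn _ (inv_fix hg) c c1)]; group⟩,
      by rw [conj_pow, ((P2 r).1 hr).2, mul_one, mul_inv_cancel]⟩) hb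
    (orb_eq (fun g hg => ne_fix (PC hg).1 hb) ((h.orbA hb).2 ▸ pow_dvd_orb PC (P1 ▸ cC)
      ((Nat.Prime.coprime_iff_not_dvd h.pp).2 (Nat.not_dvd_of_pos_of_lt Nat.card_pos hm)) b (by rw [oC, (h.orbA hb).2])))
  have cb : ∀ g ∈ C, g • b = b → g = 1 := fun g hg gb => by_contra fun g1 => by
    obtain ⟨x, x1, x2⟩ := Set.exists_ne_of_one_lt_ncard (s := Bl a π b) (by rw [h.fib b hb]; omega) b
    have sS := h.seedS hb
    have e := Set.eq_of_subset_of_ncard_le (s := insert a (Bl a π b)) (t := {y : X | g • y = y})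
      (fun y hy => hy.elim (fun e => e ▸ hg.1) (fB g hg gb y)) ((k1 g hg.1 gb g1 x x1.1 x2 (fB g hg gb x x1)).trans sS.2.symm).le
    exact k2 g hg.1 gb g1 x x1.1 x2 (fB g hg gb x x1) fun k ka kb y hy =>
      e.le (sS.1.2 k ka b (.inr ⟨hb, rfl⟩) hb (kb.symm ▸ .inr ⟨hb, rfl⟩) y (e.ge hy))
  have hH : Nat.card (stabilizer G a ⊓ stabilizer G b : Subgroup G) ≤ p - 1 := cQ ▸ card_le_of_inj (Set.toFinite _)
    (fun g => g * c * g⁻¹) (fun g hg => mQ g hg.1) fun g hg k hk e => cb _ (cj g k hg.1 hk.1 e)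
      (Subgroup.mem_inf.1 (mul_mem (inv_mem hk) hg)).2
  have z2 : ∀ u : G, u • a = a → u • b = b → u ≠ 1 → ∀ x, u • x = x → x = a ∨ x = b := fun u ua ub u1 x ux => by
    by_contra hc
    push Not at hc
    refine k2 u ua ub u1 x hc.1 hc.2 ux fun g ga gb y hy => ?_
    obtain ⟨i, hi⟩ := zp.ge (Qn g ga c c1)
    obtain ⟨j, hj⟩ := zp.ge (Qn u ua c c1)
    have := cb _ (cj (u * g) (g * u) (by rw [mul_smul, ga, ua]) (by rw [mul_smul, ua, ga]) (by
      calc u * g * c * (u * g)⁻¹ = u * (g * c * g⁻¹) * u⁻¹ := by group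
        _ = (c ^ j) ^ i := by rw [← hi, ← conj_zpow, ← hj]
        _ = g * (u * c * u⁻¹) * g⁻¹ := by rw [← hj, zpow_comm, ← conj_zpow, ← hi]
        _ = _ := by group)) (by simp [mul_smul, ub, gb, inv_fix ub, inv_fix gb])
    rw [← mul_smul, ← inv_mul_eq_one.1 this, mul_smul, hy]
  have po := h.pp.odd_of_ne_two p2
  rcases Nat.even_or_odd (Nat.card (stabilizer G a ⊓ stabilizer G b : Subgroup G)) with e | e
  · obtain ⟨⟨t, tab⟩, ht⟩ := exists_prime_orderOf_dvd_card' 2 e.two_dvd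
    rw [Subgroup.orderOf_mk] at ht
    obtain ⟨ta, tb⟩ := tab
    have t1 : t ≠ 1 := by rintro rfl; simp at ht
    have h1 := inv_cent h.t2 hb.symm (t := t) (by rw [← sq, ← ht, pow_orderOf_eq_one])
    have h2 := Set.ncard_add_ncard_compl {x : X | t • x ≠ x}
    have h3 := (Set.ncard_le_ncard (s := {x : X | t • x ≠ x}ᶜ) (t := {a, b}) fun x hx =>
      z2 t ta tb t1 x (not_not.1 hx)).trans_eq (Set.ncard_pair hb.symm)
    have fx : ∀ g ∈ Subgroup.centralizer {t}, ∀ x : X, t • x = x → g • x = a ∨ g • x = b := fun g hg x hx =>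
      z2 t ta tb t1 _ (by rw [← mul_smul, ← Subgroup.mem_centralizer_singleton_iff.1 hg, mul_smul, hx])
    have h4 := orb_card (Subgroup.centralizer {t}) a
    have h5 := (Set.ncard_le_ncard (s := orb (Subgroup.centralizer {t}) a) (t := {a, b})
      (by rintro _ ⟨g, hg, rfl⟩; exact fx g hg a ta)).trans_eq (Set.ncard_pair hb.symm)
    have h6 := Subgroup.card_le_of_le (show Subgroup.centralizer {t} ⊓ stabilizer G a ≤ stabilizer G a ⊓ stabilizer G b from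
      fun g hg => ⟨hg.2, (fx g hg.1 b tb).resolve_left (ne_fix hg.2 hb)⟩)
    have h7 := Nat.mul_le_mul h5 (h6.trans hH)
    rw [h.card] at h2
    obtain ⟨q, rfl⟩ : ∃ q, p = q + 1 := ⟨p - 1, by omega⟩
    rw [h4, Nat.add_sub_cancel] at h7
    nlinarith
  · obtain ⟨q, rfl⟩ := po
    refine no_par h.t2 h.faith (m := (2 * q ^ 2 + 2 * q + 1) * (2 * q + 1) ^ 2 * Nat.card (stabilizer G a ⊓ stabilizer G b :
      Subgroup G)) (by rw [h.cardG hb]; ring) (Odd.mul (Odd.mul ⟨q ^ 2 + q, by ring⟩ (Odd.pow ⟨q, rfl⟩)) e) (fun e' => ?_)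
      ⟨2 * q ^ 2 + 2 * q + 1, by rw [h.card]; ring⟩
    have := Nat.eq_one_of_mul_eq_one_right (Nat.eq_one_of_mul_eq_one_right e')
    omega

theorem atk : p = 2 ∧ Nat.card G = 20 := by
  obtain ⟨b, hb⟩ := h.exb
  by_cases p2 : p = 2
  · subst p2
    refine ⟨rfl, ?_⟩
    have : (stabilizer G a ⊓ stabilizer G b : Subgroup G) = ⊥ := eq_bot_iff.2 fun g hg => by
      have gb : g • b = b := hg.2
      obtain ⟨y, -, hy⟩ := (Nat.card_eq_two_iff' (π b)).1 h.cY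
      refine h.Kfaith hb ⟨hg.1, fun x hx => ?_⟩ fun x hx => by_contra fun ne => ?_
      · by_cases e : π x = π b
        · rw [(h.pi_iff hg.1 hx hb).2 e, gb, e]
        · rw [hy _ e, hy _ fun e' => e ((h.pi_iff hg.1 hx hb).1 (e'.trans (by rw [gb])))]
      · have xb : x ≠ b := by rintro rfl; exact ne gb
        have := Set.ncard_le_ncard (s := {g • x, x, b}) (t := Bl a π b) (by
          rintro _ (rfl | rfl | rfl)
          exacts [⟨ne_fix hg.1 hx.1, by rw [(h.pi_iff hg.1 hx.1 hb).2 hx.2, gb]⟩, hx, ⟨hb, rfl⟩])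
        rw [Set.ncard_eq_three.2 ⟨_, _, _, ne, ne_fix gb xb, xb, rfl⟩, h.fib b hb] at this
        omega
    rw [h.cardG hb, this, Subgroup.card_bot]; rfl
  refine (h.caseB p2 fun x hx => (pd_dich h.pp (h.cardO hx)).resolve_right fun T => h.caseA p2 hx ?_).elim
  have p3 := h.pp.two_le
  obtain ⟨y, y1, y2⟩ := Set.exists_ne_of_one_lt_ncard (s := Bl a π x) (by rw [h.fib x hx]; omega) x
  have om : ∀ z ∈ Bl a π x, z ∈ orbit (Kr G a π) x := fun z hz => by rwa [orb_orbit, h.orbK hx]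
  have c := Set.ncard_diff_singleton_add_one (s := Bl a π x) ⟨hx, rfl⟩
  rw [h.fib x hx] at c
  refine (card_le_of_inj (H := Kr G a π ⊓ stabilizer G x) (S := Bl a π x \ {x}) (Set.toFinite _) (· • y) (fun g hg => ⟨⟨ne_fix hg.1.1 y1.1,
    (hg.1.2 y y1.1).trans y1.2⟩, ne_fix hg.2 y2⟩) fun g hg k hk e => ?_).trans_lt (by omega)
  obtain ⟨m1, m2⟩ := Subgroup.mem_inf.1 (mul_mem (inv_mem hk) hg)
  exact h.Kfaith hx m1 fun z hz => congrArg Subtype.val (T ⟨_, m1⟩ ⟨x, mem_orbit_self x⟩ ⟨y, om y y1⟩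
    (fun e => y2 (congrArg Subtype.val e).symm) (Subtype.ext m2)
    (Subtype.ext (show (k⁻¹ * g) • y = y by rw [mul_smul, show g • y = k • y from e, inv_smul_smul])) ⟨z, om z hz⟩)

end Cfg

end Cfsg.Agent.ONan
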