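import Cfsg.Agent.ONan.Abel
import Cfsg.Agent.Perm.FrobKernel

/-! Symmetric designs with a group (`SD`): lines `Co`, central collineations `Ce`, fixed points (`SD.fx`),
and the Frobenius kernel `exists_ker`. -/

set_option autoImplicit false

namespace Cfsg.Agent.ONan

open MulAction Plane

section
variable {G X : Type*} [Group G] [MulAction G X]

theorem fix1 [Finite G] [Finite X] {p : ℕ} (hp : p.Prime) {P : Subgroup G} (hP : IsPGroup p P) {S : Set X}
    (hS : ∀ g ∈ P, ∀ x ∈ S, g • x ∈ S) (hd : ¬ p ∣ S.ncard) : ∃ z ∈ S, ∀ g ∈ P, g • z = z := by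
  haveI := Fact.mk hp
  by_contra hc
  push Not at hc
  refine hd (dvd_of_orb P p _ S rfl hS fun x hx => ?_)
  obtain ⟨k, hk⟩ := hP.exists_card_eq
  obtain ⟨i, -, hi⟩ := (Nat.dvd_prime_pow hp).1 (hk ▸ Dvd.intro _ (orb_card P x))
  rcases i with _ | i
  · obtain ⟨g, g1, g2⟩ := hc x hx
    obtain ⟨w, hw⟩ := Set.ncard_eq_one.1 hi
    exact absurd ((hw.le ⟨g, g1, rfl⟩).trans (hw.le ⟨1, one_mem _, one_smul _ _⟩).symm) g2
  · rw [hi]; exact dvd_pow_self p (by omega)

theorem ker_orb [Finite G] (N : Subgroup G) (D : X)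
    (h1 : ∀ g ∈ N, ∀ a ∈ N, ∀ b ∈ N, a • D ≠ b • D → g • a • D = a • D → g • b • D = b • D → g = 1) :
    ∃ K : Subgroup G, (∀ u, u ∈ K ↔ u ∈ N ∧ (u = 1 ∨ ∀ a ∈ N, u • a • D ≠ a • D)) ∧
      ∀ a ∈ N, ∃ u ∈ K, u • D = a • D := by
  obtain ⟨K, -, k1, k2⟩ := Perm.exists_frobenius_kernel (G := N) (Ω := orbit N D) (by
    rintro g ⟨_, a, rfl⟩ ⟨_, b, rfl⟩ e e1 e2
    exact Subtype.ext (h1 g g.2 a a.2 b b.2 (fun e' => e (Subtype.ext e')) (congrArg Subtype.val e1)
      (congrArg Subtype.val e2)))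
  refine ⟨K.map N.subtype, fun u => ⟨?_, fun ⟨u1, u2⟩ => ⟨⟨u, u1⟩, (k1 _).2 (u2.imp Subtype.ext ?_), rfl⟩⟩,
    fun a ha => ?_⟩
  · rintro ⟨u, hu, rfl⟩
    exact ⟨u.2, ((k1 u).1 hu).imp (congrArg Subtype.val) fun h a ha e =>
      h ⟨a • D, ⟨a, ha⟩, rfl⟩ (Subtype.ext e)⟩
  · rintro h ⟨_, a, rfl⟩ e
    exact h a a.2 (congrArg Subtype.val e)
  · obtain ⟨u, hu⟩ := k2.exists_smul_eq (⟨D, mem_orbit_self D⟩ : orbit N D) ⟨a • D, ⟨a, ha⟩, rfl⟩
    exact ⟨u.1.1, ⟨u.1, u.2, rfl⟩, congrArg Subtype.val hu⟩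

theorem exists_ker [Finite G] (N : Subgroup G) (S : Set X) (hS : ∀ g ∈ N, ∀ D ∈ S, g • D ∈ S)
    (h1 : ∀ g ∈ N, ∀ D ∈ S, ∀ E ∈ S, D ≠ E → g • D = D → g • E = E → g = 1) :
    ∃ K : Subgroup G, (∀ u, u ∈ K ↔ u ∈ N ∧ (u = 1 ∨ ∀ D ∈ S, u • D ≠ D)) ∧
      (K = ⊥ → N = ⊥ ∨ ∃ D ∈ S, ∀ g ∈ N, g • D = D) := by
  by_cases hc : ∃ w ∈ N, w ≠ 1 ∧ ∃ D ∈ S, w • D = D
  swap
  · push Not at hc
    exact ⟨N, fun u => ⟨fun hu => ⟨hu, or_iff_not_imp_left.2 (hc u hu)⟩, fun hu => hu.1⟩, Or.inl⟩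
  obtain ⟨w, w1, w2, D, hD, w3⟩ := hc
  have ko := fun D hD => ker_orb N D fun g hg a ha b hb => h1 g hg _ (hS a ha D hD) _ (hS b hb D hD)
  obtain ⟨K, k1, k2⟩ := ko D hD
  have wK : w ∉ K := fun e => ((k1 w).1 e).2.elim w2 fun e' => e' 1 (one_mem _) (by simpa using w3)
  refine ⟨K, fun u => ⟨fun hu => ⟨((k1 u).1 hu).1, or_iff_not_imp_left.2 fun u1 E hE uE => ?_⟩,
    fun hu => (k1 u).2 ⟨hu.1, hu.2.imp_right fun h a ha => h _ (hS a ha D hD)⟩⟩, fun e => .inr ⟨D, hD, fun g hg => ?_⟩⟩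
  · obtain ⟨uN, u2⟩ := (k1 u).1 hu
    have u3 := u2.resolve_left u1
    obtain ⟨K', l1, -⟩ := ko E hE
    have uK : u ∉ K' := fun e => ((l1 u).1 e).2.elim u1 fun e' => e' 1 (one_mem _) (by simpa using uE)
    have key : ∀ g ∈ N, g ∉ K → g ∈ K' := fun g hg gK => (l1 g).2 ⟨hg, .inr fun b hb e => gK ((k1 g).2 ⟨hg,
      or_iff_not_imp_left.2 fun g1 a ha e' => g1 (h1 g hg _ (hS a ha D hD) _ (hS b hb E hE) (fun e2 =>
        u3 (b⁻¹ * a) (mul_mem (inv_mem hb) ha) (by rw [mul_smul, e2, inv_smul_smul, uE])) e' e)⟩)⟩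
    exact uK ((mul_mem_cancel_right (key w w1 wK)).1 (key (u * w) (mul_mem uN w1)
      fun e => wK ((mul_mem_cancel_left hu).1 e)))
  · obtain ⟨u, hu, e'⟩ := k2 g hg
    rw [e, Subgroup.mem_bot] at hu
    rw [← e', hu, one_smul]

theorem ncard_sum [Fintype X] (S : X → Prop) [DecidablePred S] : {x | S x}.ncard = ∑ x, if S x then 1 else 0 := by
  rw [Finset.sum_boole, ← Set.ncard_coe_finset]; congr 1; ext; simp

end

/-- A symmetric design with a group of automorphisms. -/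
structure SD (G : Type*) [Group G] {P L : Type*} [MulAction G P] [MulAction G L] (I : P → L → Prop) (k l : ℕ) :
    Prop where
  inv : ∀ (g : G) p D, I (g • p) (g • D) ↔ I p D
  kP : ∀ p, {D | I p D}.ncard = k
  kL : ∀ D, {p | I p D}.ncard = k
  lP : ∀ p q, p ≠ q → {D | I p D ∧ I q D}.ncard = l
  lL : ∀ D E, D ≠ E → {p | I p D ∧ I p E}.ncard = l
  lt : l + 2 ≤ k
  card : Nat.card P = Nat.card L
  faith : ∀ g : G, (∀ p : P, g • p = p) → g = 1

variable {G P L : Type*} [Group G] [MulAction G P] [MulAction G L] {I : P → L → Prop} {k l : ℕ}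

/-- `w` is on the line through `x` and `y`. -/
def Co (I : P → L → Prop) (x y w : P) : Prop := ∀ D, I x D → I y D → I w D

/-- The collineations with centre `x`. -/
def Ce (G : Type*) [Group G] [MulAction G L] (I : P → L → Prop) (x : P) : Subgroup G where
  carrier := {g | ∀ D, I x D → g • D = D}
  mul_mem' := fun {a b} ha hb D hD => by rw [mul_smul, hb D hD, ha D hD]
  one_mem' := fun D _ => one_smul _ _
  inv_mem' := fun {a} ha D hD => inv_smul_eq_iff.2 (ha D hD).symm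

namespace SD
variable [Finite P] [Finite L] (h : SD G I k l)
include h

theorem exD {x y : P} (e : x ≠ y) : ∃ D, I x D ∧ ¬ I y D := by
  by_contra hc
  push Not at hc
  have h1 := Set.ncard_le_ncard (s := {D | I x D}) (t := {D | I x D ∧ I y D}) fun D hD => ⟨hD, hc D hD⟩
  have := h.lt
  rw [h.kP, h.lP x y e] at h1
  omega

theorem repl {x y z : P} (xy : x ≠ y) (xz : x ≠ z) (e : Co I x y z) : Co I x z y := fun D h1 h2 =>
  ((Set.eq_of_subset_of_ncard_le (s := {D | I x D ∧ I y D}) (t := {D | I x D ∧ I z D})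
    (fun D hD => ⟨hD.1, e D hD.1 hD.2⟩) (by rw [h.lP x y xy, h.lP x z xz])).ge ⟨h1, h2⟩).2

theorem meet1 {x y w : P} {D : L} (hx : ¬ I x D) (hy : I y D) (hw : I w D) (e : Co I x y w) : w = y :=
  by_contra fun ne => hx (h.repl (x := y) (y := x) (fun e' => hx (e' ▸ hy)) (Ne.symm ne)
    (fun E h1 h2 => e E h2 h1) D hy hw)

omit [Finite P] [Finite L] in
theorem ce_co {x : P} {g : G} (hg : g ∈ Ce G I x) (y : P) : Co I x y (g • y) := fun D h1 h2 =>
  hg D h1 ▸ (h.inv g y D).2 h2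

theorem ce_fix {x : P} {g : G} (hg : g ∈ Ce G I x) : g • x = x := by_contra fun ne => by
  obtain ⟨D, h1, h2⟩ := h.exD (Ne.symm ne)
  exact h2 (h.ce_co hg x D h1 h1)

theorem dual : SD G (fun D p => I p D) k l :=
  ⟨fun g D p => h.inv g p D, h.kL, h.kP, h.lL, h.lP, h.lt, h.card.symm,
    fun g hg => h.faith g fun _ => h.ce_fix fun D _ => hg D⟩

theorem ce_ax {x y : P} {g : G} {D : L} (hg : g ∈ Ce G I x) (hx : ¬ I x D) (e : g • D = D) (hy : I y D) :
    g • y = y := h.meet1 hx hy (e ▸ (h.inv g y D).2 hy) (h.ce_co hg y)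

theorem two_ce {x y : P} {g : G} (hx : g ∈ Ce G I x) (hy : g ∈ Ce G I y) (e : x ≠ y) : g = 1 := by
  have k1 : ∀ p, ¬ Co I x y p → g • p = p := fun p hp => by
    obtain ⟨D, d1, d2, d3⟩ : ∃ D, I y D ∧ I p D ∧ ¬ I x D := by
      by_contra hc
      push Not at hc
      exact hp fun D h1 h2 => h.repl (x := y) (y := p) (by rintro rfl; exact hp fun _ _ h => h) e.symm hc D h2 h1
    exact h.ce_ax hx d3 (hy D d1) d2
  refine h.faith g fun z => by_contra fun hz => ?_
  have z1 : Co I x y z := by_contra fun e => hz (k1 z e)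
  have zx : z ≠ x := by rintro rfl; exact hz (h.ce_fix hx)
  obtain ⟨D, d1, d2⟩ := h.exD zx
  refine hz (h.ce_ax hx d2 (by_contra fun ne => ?_) d1)
  have h1 := Set.ncard_le_ncard (s := {p | I p D} \ {z}) (t := {p | I p D ∧ I p (g • D)}) fun p hp => ⟨hp.1, by
    have : g • p = p := k1 p fun e' => hp.2 (h.meet1 d2 d1 hp.1 fun E h1 h2 => e' E h1 (h.repl e zx.symm z1 E h1 h2))
    exact this ▸ (h.inv g p D).2 hp.1⟩
  have h2 := Set.ncard_diff_singleton_add_one (s := {p | I p D}) d1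
  have := h.lt
  rw [h.lL _ _ (Ne.symm ne)] at h1
  rw [h.kL] at h2
  omega

theorem two_ax {x : P} {g : G} {D E : L} (hg : g ∈ Ce G I x) (hD : ¬ I x D) (hE : ¬ I x E) (e : D ≠ E)
    (h1 : g • D = D) (h2 : g • E = E) : g = 1 :=
  h.dual.two_ce (x := D) (y := E) (fun _ hp => h.ce_ax hg hD h1 hp) (fun _ hp => h.ce_ax hg hE h2 hp) e

theorem fx_sum (g : G) : {x : P × L | I x.1 x.2 ∧ I x.1 (g • x.2)}.ncard =
    (k - l) * {D : L | g • D = D}.ncard + l * Nat.card L := by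
  classical
  cases nonempty_fintype P
  cases nonempty_fintype L
  have e : ∀ D : L, (∑ p, if I p D ∧ I p (g • D) then 1 else 0) = (k - l) * (if g • D = D then 1 else 0) + l :=
    fun D => by
    have := h.lt
    rw [← ncard_sum]
    split_ifs with e2
    · simp only [e2, and_self]; rw [h.kL]; omega
    · rw [h.lL _ _ (Ne.symm e2)]; omega
  rw [ncard_sum, ncard_sum, Fintype.sum_prod_type_right]
  simp only [e, Finset.sum_add_distrib, ← Finset.mul_sum]
  simp [mul_comm]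

theorem fx (g : G) : {p : P | g • p = p}.ncard = {D : L | g • D = D}.ncard := by
  have h1 := h.fx_sum g
  have h2 := h.dual.fx_sum g⁻¹
  have i : ∀ p D, I p (g • D) ↔ I (g⁻¹ • p) D := fun p D => by rw [← h.inv g⁻¹, inv_smul_smul]
  have e : {x : P × L | I x.1 x.2 ∧ I x.1 (g • x.2)}.ncard = {x : L × P | I x.2 x.1 ∧ I (g⁻¹ • x.2) x.1}.ncard :=
    Set.ncard_congr (fun x _ => x.swap) (fun x hx => ⟨hx.1, (i _ _).1 hx.2⟩)
      (fun a b _ _ e => Prod.swap_injective e) fun x hx => ⟨x.swap, ⟨hx.1, (i _ _).2 hx.2⟩, rfl⟩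
  simp only [inv_smul_eq_iff, eq_comm (b := g • _)] at h2
  rw [e, h2, h.card] at h1
  exact Nat.eq_of_mul_eq_mul_left (by have := h.lt; omega) (Nat.add_right_cancel h1)

theorem tr2 [Finite G] (h2 : Tr2 G L) {D E : L} (e0 : D ≠ E) : Tr2 G P := fun l m l' m' e e' => by
  cases nonempty_fintype G
  have h0 := h2.orbs e0
  have h1 := burnside (G := G) (X := P × P)
  have h4 := burnside (G := G) (X := L × L)
  simp only [fix_prod, h.fx] at h1 h4
  obtain ⟨g, hg⟩ := two_class ((Nat.eq_of_mul_eq_mul_right Nat.card_pos (h1.symm.trans h4)).trans_le h0)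
    (fun x => x.1 ≠ x.2) (fun g x hx e => hx (smul_left_cancel g e)) (x := (l, m)) (y := (l', m')) (z := (l, l))
    e e' (by simp)
  exact ⟨g, Prod.ext_iff.1 hg⟩

/-- A set meeting every block not through both `x` and `y` in `l` points contains the line `xy`. -/
theorem line_sub {F : P → Prop} {x y p : P} (hx : F x)
    (hF : ∀ D, ¬ (I x D ∧ I y D) → {q | I q D ∧ F q}.ncard = l) (hp : Co I x y p) : F p := by
  classical
  cases nonempty_fintype P
  cases nonempty_fintype L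
  by_contra hc
  have s1 : ∀ p, (∑ D, if I p D then {q | I q D ∧ F q}.ncard else 0) =
      ∑ q, if F q then (if q = p then k else l) else 0 := fun p => by
    have : ∀ D, (if I p D then {q | I q D ∧ F q}.ncard else 0) = ∑ q, if F q ∧ I q D ∧ I p D then 1 else 0 :=
      fun D => by
      rw [← ncard_sum]
      split_ifs with e
      · congr 1; ext; simp [e, and_comm]
      · simp [e]
    simp only [this]
    rw [Finset.sum_comm]
    refine Finset.sum_congr rfl fun q _ => ?_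
    rw [← ncard_sum]
    split_ifs with e1 e2
    · simp only [e1, e2, true_and, and_self, hc]; simpa [← e2, e1] using h.kP q
    · simpa [e1] using h.lP q p e2
    · simp [e1]
  have s2 : ∀ p, (∑ D, if I p D then l else 0) = k * l := fun p => by
    rw [← h.kP p, ncard_sum, Finset.sum_mul]; simp
  have s3 : ((∑ D, if I p D then {q | I q D ∧ F q}.ncard else 0) + ∑ D, if I x D then l else 0) =
      (∑ D, if I x D then {q | I q D ∧ F q}.ncard else 0) + ∑ D, if I p D then l else 0 := by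
    rw [← Finset.sum_add_distrib, ← Finset.sum_add_distrib]
    refine Finset.sum_congr rfl fun D _ => ?_
    by_cases e : I x D ∧ I y D
    · simp [e.1, hp D e.1 e.2]
    · rw [hF D e, add_comm]
  rw [s1, s1, s2, s2] at s3
  have := h.lt
  refine (Finset.sum_lt_sum (fun q _ => ?_) ⟨x, Finset.mem_univ _, ?_⟩).ne (Nat.add_right_cancel s3)
  · split_ifs with e1 e2 e3
    · exact le_rfl
    · exact absurd (e2 ▸ e1) hc
    · omega
    · exact le_rfl
    · exact le_rfl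
  · have : x ≠ p := by rintro rfl; exact hc hx
    simp [hx, this]; omega

end SD

end Cfsg.Agent.ONan
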