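import Cfsg.Agent.ONan.Design

/-! A 2-transitive group of a symmetric design containing a central collineation: the group of "elations" with a given
centre is abelian (`EL.comm`), so O'Nan's theorem applies (`SD.core`); construction of the design (`exists_SD`). -/

set_option autoImplicit false

namespace Cfsg.Agent.ONan

open MulAction Plane

variable {G P L : Type*} [Group G] [MulAction G P] [MulAction G L] {I : P → L → Prop} {k l : ℕ}

theorem exists_prime_pow [Finite G] {b : G} (b1 : b ≠ 1) : ∃ r m : ℕ, r.Prime ∧ b ^ m ≠ 1 ∧ (b ^ m) ^ r = 1 := by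
  obtain ⟨p, pp, m, hm⟩ := Nat.exists_prime_and_dvd (orderOf_eq_one_iff.not.2 b1)
  have o0 : 0 < m := Nat.pos_of_mul_pos_left (hm ▸ orderOf_pos b)
  refine ⟨p, m, pp, fun e => ?_, by rw [← pow_mul, mul_comm, ← hm, pow_orderOf_eq_one]⟩
  have h1 := Nat.le_of_dvd o0 (orderOf_dvd_of_pow_eq_one e)
  have := pp.two_le
  nlinarith

theorem pg_zp {b : G} {r : ℕ} (e : b ^ r = 1) : IsPGroup r (Subgroup.zpowers b) := by
  rintro ⟨_, n, rfl⟩
  refine ⟨1, Subtype.ext ?_⟩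
  show (b ^ n) ^ (r ^ 1) = 1
  rw [pow_one, ← zpow_natCast, zpow_comm, zpow_natCast, e, one_zpow]

/-- The family of groups of elations. -/
structure EL (I : P → L → Prop) (k l : ℕ) (N : P → Subgroup G) : Prop extends SD G I k l where
  mem : ∀ x u, u ∈ N x ↔ u ∈ Ce G I x ∧ (u = 1 ∨ ∀ D, ¬ I x D → u • D ≠ D)
  t2 : Tr2 G P
  ne : ∃ x, N x ≠ ⊥

namespace EL
variable [Finite G] [Finite P] [Finite L] {N : P → Subgroup G} (h : EL I k l N)
include h

omit [Finite G] in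
theorem cardF {x : P} {u : G} (hu : u ∈ N x) (u1 : u ≠ 1) : {p : P | u • p = p}.ncard = k := by
  rw [h.fx, ← h.kP x]
  obtain ⟨h1, h2⟩ := (h.mem x u).1 hu
  congr 1; ext D
  exact ⟨fun e => by_contra fun e' => h2.resolve_left u1 D e' e, h1 D⟩

omit [Finite G] in
theorem ex2 {x : P} {u : G} (hu : u ∈ N x) : ∃ y, y ≠ x ∧ u • y = y := by
  have := h.lt
  by_cases u1 : u = 1
  · obtain ⟨D, hD⟩ := (Set.ncard_pos (Set.toFinite _)).1 (show 0 < {D | I x D}.ncard by rw [h.kP]; omega)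
    obtain ⟨y, -, hy⟩ := Set.exists_ne_of_one_lt_ncard (s := {p | I p D}) (by rw [h.kL]; omega) x
    exact ⟨y, hy, by rw [u1, one_smul]⟩
  obtain ⟨y, h1, h2⟩ := Set.exists_ne_of_one_lt_ncard (s := {p : P | u • p = p}) (by rw [h.cardF hu u1]; omega) x
  exact ⟨y, h2, h1⟩

omit [Finite G] in
theorem fam : Fam N := by
  refine ⟨h.t2, h.faith, fun g x a ha => ?_, fun x a ha => h.ce_fix ((h.mem x a).1 ha).1, ?_⟩
  · obtain ⟨h1, h2⟩ := (h.mem x a).1 ha
    have i : ∀ D, I (g • x) D ↔ I x (g⁻¹ • D) := fun D => by rw [← h.inv g⁻¹, inv_smul_smul]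
    refine (h.mem _ _).2 ⟨fun D hD => by rw [mul_smul, mul_smul, h1 _ ((i D).1 hD), smul_inv_smul],
      h2.imp (fun e => by simp [e]) fun h3 D hD e => h3 _ (mt (i D).2 hD) ?_⟩
    rwa [mul_smul, mul_smul, ← eq_inv_smul_iff] at e
  · obtain ⟨x, hx⟩ := h.ne
    obtain ⟨⟨a, a1⟩, a2⟩ := Subgroup.ne_bot_iff_exists_ne_one.1 hx
    obtain ⟨y, h1, h2⟩ := h.ex2 a1
    exact ⟨x, y, h1.symm, a, a1, fun e => a2 (Subtype.ext e), h2⟩

omit [Finite G] in
theorem co {x : P} {u : G} (hu : u ∈ N x) (y : P) : Co I x y (u • y) := h.ce_co ((h.mem x u).1 hu).1 y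

omit [Finite G] in
theorem ti {x y : P} {u : G} (hx : u ∈ N x) (hy : u ∈ N y) (e : x ≠ y) : u = 1 :=
  h.two_ce ((h.mem x u).1 hx).1 ((h.mem y u).1 hy).1 e

omit [Finite G] in
theorem aa {x y : P} {a b : G} (e : x ≠ y) (ha : a ∈ N x) (ay : a • y = y) (hb : b ∈ N y) (bx : b • x = x) :
    a * b = b * a := by
  have h1 := h.fam.cmN ha bx
  have h2 := inv_mem (h.fam.cmN hb ay)
  have := h.ti h1 (by simpa [mul_assoc] using h2) e
  rwa [mul_inv_eq_one, mul_inv_eq_iff_eq_mul] at this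

theorem dvd_t {x y z : P} {u : G} {r : ℕ} (hr : r.Prime) (hu : u ∈ N z) (u1 : u ≠ 1) (ur : u ^ r = 1) (e : x ≠ y) :
    r ∣ (orb (N x) y).ncard := by
  by_contra hc
  obtain ⟨w, w1, -⟩ := h.ex2 hu
  obtain ⟨D, -, hD⟩ := h.exD w1
  have : ∀ p, I p D → ∃ q ∈ orb (N z) p, u • q = q := fun p hp => by
    obtain ⟨q, q1, q2⟩ := fix1 hr (pg_zp ur) (S := orb (N z) p) (by
      rintro g hg _ ⟨a, ha, rfl⟩
      exact ⟨g * a, mul_mem (Subgroup.zpowers_le.2 hu hg) ha, mul_smul _ _ _⟩)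
      (by rwa [h.fam.cardO (x := z) (y := p) (fun e => hD (e ▸ hp)) e])
    exact ⟨q, q1, q2 u (Subgroup.mem_zpowers u)⟩
  choose! f f1 f2 using this
  have h1 := Set.ncard_le_ncard_of_injOn (s := {p | I p D}) (t := {p : P | u • p = p} \ {z}) f (fun p hp => ⟨f2 p hp, by
    obtain ⟨a, ha, e⟩ := f1 p hp
    exact e ▸ h.fam.ne_of_mem (fun e => hD (e ▸ hp)) ha⟩) fun p hp q hq e => by
      obtain ⟨a, ha, a1⟩ := f1 p hp
      obtain ⟨b, hb, b1⟩ := f1 q hq
      have : p = (a⁻¹ * b) • q := by rw [mul_smul, b1, ← e, ← a1, inv_smul_smul]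
      exact h.meet1 hD hq hp (this ▸ h.co (mul_mem (inv_mem ha) hb) q)
  have h2 := Set.ncard_diff_singleton_add_one (s := {p : P | u • p = p}) (h.fam.fix z u hu)
  rw [h.cardF hu u1] at h2
  rw [h.kL] at h1
  omega

omit [Finite G] in
theorem meetF {x : P} {u : G} {D : L} (hu : u ∈ N x) (u1 : u ≠ 1) (hD : ¬ I x D) :
    {p | I p D ∧ u • p = p}.ncard = l := by
  rw [← h.lL D (u • D) (((h.mem x u).1 hu).2.resolve_left u1 D hD).symm]
  congr 1; ext p
  refine and_congr_right fun hp => ⟨fun e => e ▸ (h.inv u p D).2 hp, fun e => ?_⟩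
  have h1 : I (u⁻¹ • p) D := by rw [← h.inv u, smul_inv_smul]; exact e
  exact (inv_smul_eq_iff.1 (h.meet1 hD hp h1 (h.co (inv_mem hu) p))).symm

omit [Finite G] in
/-- two lines through `p` -/
theorem two_ln {x y p q : P} (e : x ≠ y) (hp : ¬ Co I x y p) (h1 : Co I x p q) (h2 : Co I y p q) : q = p := by
  by_contra ne
  have px : p ≠ x := by rintro rfl; exact hp fun _ h _ => h
  have py : p ≠ y := by rintro rfl; exact hp fun _ _ h => h
  have k1 := h.repl px (Ne.symm ne) fun D a b => h1 D b a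
  have k2 := h.repl py (Ne.symm ne) fun D a b => h2 D b a
  exact hp (h.repl px.symm e fun D a b => k2 D b (h1 D a b))

theorem fixl {x y w : P} {b : G} (e : x ≠ y) (hb : b ∈ N y) (bx : b • x = x) (hw : Co I x y w) : b • w = w := by
  by_cases b1 : b = 1
  · rw [b1, one_smul]
  obtain ⟨r, m, hr, c1, c2⟩ := exists_prime_pow b1
  have cN := pow_mem hb m
  suffices H : b ^ m • w = w from
    (Set.eq_of_subset_of_ncard_le (s := {p : P | b • p = p}) (t := {p : P | b ^ m • p = p})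
      (fun p hp => pow_mem (show b ∈ stabilizer G p from hp) m) (by rw [h.cardF hb b1, h.cardF cN c1])).ge H
  have cx : b ^ m • x = x := pow_mem (show b ∈ stabilizer G x from bx) m
  generalize b ^ m = b at c1 c2 cN cx
  have F := h.fam
  have by' := F.fix y b cN
  obtain ⟨_, ⟨ρ, hρ, rfl⟩, z1, z2⟩ := fix2 hr (pg_zp c2) (S := orb (N x) y) (by
    rintro g hg _ ⟨a, ha, rfl⟩
    have g1 : g • x = x := (Subgroup.zpowers_le (H := stabilizer G x)).2 cx hg
    have g2 : g⁻¹ • y = y := (Subgroup.zpowers_le (H := stabilizer G y)).2 by' (inv_mem hg)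
    exact ⟨g * a * g⁻¹, by simpa [g1] using F.eqv g x a ha, by rw [mul_smul, g2, mul_smul]⟩)
    (h.dvd_t hr cN c1 c2 e) ⟨1, one_mem _, one_smul _ _⟩
    fun g hg => (Subgroup.zpowers_le (H := stabilizer G y)).2 by' hg
  have z3 := z2 b (Subgroup.mem_zpowers b)
  have aN := F.cmN (inv_mem hρ) cx
  have cz := F.eqv ρ⁻¹ y b cN
  have ac : ρ⁻¹ * b * ρ⁻¹⁻¹ = ρ⁻¹ * b * ρ⁻¹⁻¹ * b⁻¹ * b := by group
  have ay : (ρ⁻¹ * b * ρ⁻¹⁻¹ * b⁻¹) • y = y := by
    rw [mul_smul, inv_smul_eq_iff.2 by'.symm, inv_inv, mul_smul, mul_smul, z3, inv_smul_smul]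
  have zy : ρ⁻¹ • y ≠ y := fun e => z1 (inv_smul_eq_iff.1 e).symm
  have zx := F.ne_of_mem e (inv_mem hρ)
  have zl := h.co (inv_mem hρ) y
  generalize ρ⁻¹ • y = z at cz zy zx zl
  rw [ac] at cz
  generalize ρ⁻¹ * b * ρ⁻¹⁻¹ * b⁻¹ = a at aN cz ay
  have a1 : a ≠ 1 := by rintro rfl; exact c1 (h.ti (by simpa using cz) cN zy)
  have ab := h.aa e aN ay cN cx
  have off : ∀ p, ¬ Co I x y p → (a • p = p ↔ b • p = p) := fun p hp => ⟨fun h1 =>
    h.two_ln zy.symm (fun h2 => hp fun D d1 d2 => h2 D d2 (zl D d1 d2)) (h.co cN p)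
      (by simpa [ab, mul_smul, h1] using h.co cz p), fun h1 =>
    h.two_ln zx.symm (fun h2 => hp fun D d1 d2 => h2 D d1 (zl D d1 d2)) (h.co aN p)
      (by simpa [mul_smul, h1] using h.co cz p)⟩
  have ax := F.fix x a aN
  have all : ∀ p, a • p = p ↔ b • p = p := fun p => by
    by_cases hp : Co I x y p
    swap
    · exact off p hp
    by_cases px : p = x
    · simp [px, ax, cx]
    by_cases py : p = y
    · simp [py, ay, by']
    obtain ⟨D, d1, d2⟩ := h.exD px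
    have d3 : ¬ I y D := fun d3 => py (h.meet1 d2 d3 d1 hp)
    have o : ∀ q, I q D → q ≠ p → (a • q = q ↔ b • q = q) := fun q q1 q2 => off q fun hq =>
      q2 (h.meet1 d2 d1 q1 fun E e1 e2 => hq E e1 (h.repl e (Ne.symm px) hp E e1 e2))
    have h1 := h.meetF aN a1 d2
    have h2 := h.meetF cN c1 d3
    exact ⟨fun h3 => ((Set.eq_of_subset_of_ncard_le (s := {q | I q D ∧ b • q = q}) (t := {q | I q D ∧ a • q = q})
      (fun q hq => ⟨hq.1, by_contra fun ne => ne ((o q hq.1 (by rintro rfl; exact ne h3)).2 hq.2)⟩)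
      (h1.trans h2.symm).le).ge ⟨d1, h3⟩).2,
      fun h3 => ((Set.eq_of_subset_of_ncard_le (s := {q | I q D ∧ a • q = q}) (t := {q | I q D ∧ b • q = q})
      (fun q hq => ⟨hq.1, by_contra fun ne => ne ((o q hq.1 (by rintro rfl; exact ne h3)).1 hq.2)⟩)
      (h2.trans h1.symm).le).ge ⟨d1, h3⟩).2⟩
  refine h.line_sub (F := fun p => b • p = p) cx (fun D hD => ?_) hw
  by_cases d : I y D
  · simpa only [all] using h.meetF aN a1 fun d' => hD ⟨d', d⟩
  · exact h.meetF cN c1 d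

theorem Anorm {x y : P} {a r : G} (e : x ≠ y) (ha : a ∈ N x) (ay : a • y = y) (hr : r ∈ N x) : a • r • y = r • y :=
  h.fixl e.symm ha ay fun D d1 d2 => h.co hr y D d2 d1

theorem Acomm {x y : P} {a a' : G} (e : x ≠ y) (ha : a ∈ N x) (ay : a • y = y) (ha' : a' ∈ N x) (ay' : a' • y = y) :
    a * a' = a' * a := by
  have F := h.fam
  obtain ⟨ρ, hρ, z1⟩ := F.mv e
  let φ : (N y ⊓ stabilizer G x : Subgroup G) → (N x ⊓ stabilizer G y : Subgroup G) := fun b =>
    ⟨ρ⁻¹ * b * ρ⁻¹⁻¹ * b.1⁻¹, F.cmN (inv_mem hρ) b.2.2, show _ • y = y by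
      rw [mul_smul, inv_smul_eq_iff.2 (F.fix y b b.2.1).symm, inv_inv, mul_smul, mul_smul,
        h.fixl e b.2.1 b.2.2 (h.co hρ y), inv_smul_smul]⟩
  have inj : Function.Injective φ := fun b c e' => by
    have e1 : ρ⁻¹ * b * ρ⁻¹⁻¹ * b.1⁻¹ = ρ⁻¹ * c * ρ⁻¹⁻¹ * c.1⁻¹ := congrArg Subtype.val e'
    have m := mul_mem (inv_mem (Subgroup.mem_inf.1 c.2).1) (Subgroup.mem_inf.1 b.2).1
    have e2 : ρ * (c.1⁻¹ * b) * ρ⁻¹ = c.1⁻¹ * b := by
      have : c.1⁻¹ * b = ρ * c.1⁻¹ * (b * ρ⁻¹) := by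
        calc c.1⁻¹ * b = c.1⁻¹ * ρ * (ρ⁻¹ * b * ρ⁻¹⁻¹ * b.1⁻¹) * b * ρ⁻¹ := by group
          _ = _ := by rw [e1]; group
      calc _ = ρ * c.1⁻¹ * (b * ρ⁻¹) := by group
        _ = _ := this.symm
    exact Subtype.ext (inv_mul_eq_one.1 (h.ti (e2 ▸ F.eqv ρ y _ m) m z1)).symm
  obtain ⟨b, hb⟩ := (inj.bijective_of_nat_card_le (F.cardA e e.symm).le).2 ⟨a, ha, ay⟩
  have e1 : ρ⁻¹ * b * ρ⁻¹⁻¹ * b.1⁻¹ = a := congrArg Subtype.val hb
  have h1 : Commute a' b.1 := h.aa e ha' ay' b.2.1 b.2.2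
  have h2 : Commute a' (ρ⁻¹ * b * ρ⁻¹⁻¹) := h.aa (F.ne_of_mem e (inv_mem hρ)).symm ha' (h.Anorm e ha' ay' (inv_mem hρ))
    (F.eqv ρ⁻¹ y b b.2.1) (by
      rw [inv_inv, mul_smul, mul_smul, F.fix x ρ hρ, show b.1 • x = x from b.2.2, F.fix x _ (inv_mem hρ)])
  exact (e1 ▸ h2.mul_right h1.inv_right).symm

theorem comm {x : P} {a b : G} (ha : a ∈ N x) (hb : b ∈ N x) : a * b = b * a := by
  by_contra ne
  have c1 : a * b * a⁻¹ * b⁻¹ ≠ 1 := fun e => ne (by rwa [mul_inv_eq_one, mul_inv_eq_iff_eq_mul] at e)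
  have cN := mul_mem (mul_mem (mul_mem ha hb) (inv_mem ha)) (inv_mem hb)
  have n : ∀ {a r : G} {y : P}, a ∈ N x → r ∈ N x → a • y = y → a • r • y = r • y := fun {a r y} ha hr ay => by
    by_cases e : x = y
    · rw [← e, h.fam.fix x r hr, h.fam.fix x a ha]
    · exact h.Anorm e ha ay hr
  have k : ∀ {u : G}, u ∈ N x → u ≠ 1 → (∀ p : P, u • p = p → (a * b * a⁻¹ * b⁻¹) • p = p) →
      ∀ p : P, (a * b * a⁻¹ * b⁻¹) • p = p → u • p = p := fun {u} hu u1 H =>
    (Set.eq_of_subset_of_ncard_le (s := {p : P | u • p = p}) (t := {p : P | (a * b * a⁻¹ * b⁻¹) • p = p}) H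
      (by rw [h.cardF hu u1, h.cardF cN c1])).ge
  obtain ⟨y, y1, y2⟩ := h.ex2 cN
  refine ne (h.Acomm y1.symm ha (k ha (by rintro rfl; simp at ne) (fun p hp => ?_) y y2) hb
    (k hb (by rintro rfl; simp at ne) (fun p hp => ?_) y y2))
  · rw [mul_smul, mul_smul, mul_smul, inv_smul_eq_iff.2 (n ha (inv_mem hb) hp).symm, smul_inv_smul, hp]
  · rw [mul_smul, mul_smul, mul_smul, inv_smul_eq_iff.2 hp.symm, n hb (inv_mem ha) hp, smul_inv_smul]

end EL

theorem SD.core [Finite G] [Finite P] [Finite L] (h : SD G I k l) (t2 : Tr2 G P) (hv : k + 2 ≤ Nat.card P) {x : P}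
    (hx : Ce G I x ≠ ⊥) : ∃ (L : Subgroup G) (F : Type) (_ : Field F) (_ : Fintype F) (n : ℕ), 3 ≤ n ∧ L.Normal ∧
      Subgroup.centralizer (L : Set G) = ⊥ ∧ Nonempty (L ≃* Matrix.ProjectiveSpecialLinearGroup (Fin n) F) ∧
      Nat.card P * (Fintype.card F - 1) = Fintype.card F ^ n - 1 := by
  have := fun x : P => exists_ker (Ce G I x) {D | ¬ I x D}
    (fun g hg D hD e => hD ((h.inv g x D).1 ((h.ce_fix hg).symm ▸ e))) fun g hg D hD E hE => h.two_ax hg hD hE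
  choose N n1 n2 using this
  have ne : N x ≠ ⊥ := fun e => by
    obtain ⟨D, d1, d2⟩ := (n2 x e).resolve_left hx
    obtain ⟨⟨a, a1⟩, a2⟩ := Subgroup.ne_bot_iff_exists_ne_one.1 hx
    have := h.lt
    obtain ⟨y, hy⟩ := (Set.ncard_pos (Set.toFinite _)).1 (show 0 < {p | I p D}.ncard by rw [h.kL]; omega)
    have h1 := Set.ncard_add_ncard_compl {p | I p D}
    obtain ⟨w, w1, w2⟩ := Set.exists_ne_of_one_lt_ncard (s := {p | I p D}ᶜ) (by rw [h.kL] at h1; omega) x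
    obtain ⟨g, g1, g2⟩ := t2 x y x w (fun e => d1 (e ▸ hy)) w2.symm
    have i : ∀ D, I x (g • D) ↔ I x D := fun D => by rw [← h.inv g x D, g1]
    have aD : a • g • D = g • D := by
      have := d2 (g⁻¹ * a * g) fun E hE => by rw [mul_smul, mul_smul, a1 _ ((i E).2 hE), inv_smul_smul]
      rwa [mul_smul, mul_smul, inv_smul_eq_iff] at this
    exact a2 (Subtype.ext (h.two_ax a1 d1 (mt (i D).1 d1) (fun e => w1 (e ▸ g2 ▸ (h.inv g y D).2 hy)) (d2 a a1) aD))
  have E : EL I k l N := ⟨h, n1, t2, x, ne⟩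
  obtain ⟨⟨a, a1⟩, a2⟩ := Subgroup.ne_bot_iff_exists_ne_one.1 ne
  exact core_ab t2 h.faith (E.fam.fix x) (fun g hg n hn => by simpa [show g • x = x from hg] using E.fam.eqv g x n hn)
    (fun a ha b hb => E.comm ha hb) ⟨a, a1, fun e => a2 (Subtype.ext e), E.ex2 a1⟩

theorem cnt (g : G) {S T : P → Prop} (h : ∀ x, T (g • x) ↔ S x) : {x | S x}.ncard = {x | T x}.ncard :=
  Set.ncard_congr (fun x _ => g • x) (fun x hx => (h x).2 hx) (fun _ _ _ _ e => smul_left_cancel g e)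
    fun y hy => ⟨g⁻¹ • y, (h _).1 (by simpa using hy), smul_inv_smul _ _⟩

theorem exists_SD [Finite P] [Finite L] (inv : ∀ (g : G) p D, I (g • p) (g • D) ↔ I p D) (t2 : Tr2 G P)
    (tL : ∀ D E : L, ∃ g : G, g • D = E) (card : Nat.card P = Nat.card L) (faith : ∀ g : G, (∀ p : P, g • p = p) → g = 1)
    {D₀ : L} (hk : {p | I p D₀}.ncard = k) (h2 : 2 ≤ k) (hv : k + 2 ≤ Nat.card P) : ∃ l, SD G I k l := by
  classical
  cases nonempty_fintype P
  cases nonempty_fintype L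
  have : Nontrivial P := Finite.one_lt_card_iff_nontrivial.1 (by omega)
  obtain ⟨a, b, ab⟩ := exists_pair_ne P
  have kL : ∀ D, {p | I p D}.ncard = k := fun D => by
    obtain ⟨g, rfl⟩ := tL D₀ D
    exact (cnt g fun x => inv g x D₀).symm.trans hk
  have kP : ∀ p, {D | I p D}.ncard = k := by
    have h1 : ∀ p, {D | I p D}.ncard = {D | I a D}.ncard := fun p => by
      obtain ⟨g, rfl⟩ := Tr2_tr t2 ab a p
      exact (cnt g fun x => inv g a x).symm
    have h3 : ∑ p, {D | I p D}.ncard = ∑ D, {p | I p D}.ncard := by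
      simp only [ncard_sum]; exact Finset.sum_comm
    simp only [h1, kL, Finset.sum_const, Finset.card_univ, smul_eq_mul, ← Nat.card_eq_fintype_card, ← card] at h3
    exact fun p => (h1 p).trans (Nat.eq_of_mul_eq_mul_left (by omega) h3)
  obtain ⟨l, hl⟩ : ∃ l, {D | I a D ∧ I b D}.ncard = l := ⟨_, rfl⟩
  have lP : ∀ p q, p ≠ q → {D | I p D ∧ I q D}.ncard = l := fun p q e => by
    obtain ⟨g, rfl, rfl⟩ := t2 a b p q ab e
    exact (cnt g fun x => by rw [inv, inv]).symm.trans hl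
  have lt : l + 2 ≤ k := by
    have h3 : ∑ q, {D | I a D ∧ I q D}.ncard = k * k := by
      have : ∀ D, (∑ q, if I a D ∧ I q D then 1 else 0) = (if I a D then 1 else 0) * k := fun D => by
        rw [← ncard_sum]
        split_ifs with e
        · simpa [e] using kL D
        · simp [e]
      simp only [ncard_sum]
      rw [Finset.sum_comm]
      simp only [this]
      rw [← Finset.sum_mul, ← ncard_sum, kP]
    rw [← Finset.add_sum_erase _ _ (Finset.mem_univ a), Finset.sum_congr rfl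
      fun q hq => lP a q (Finset.ne_of_mem_erase hq).symm] at h3
    simp only [and_self, kP, Finset.sum_const, Finset.card_erase_of_mem (Finset.mem_univ a), Finset.card_univ,
      smul_eq_mul, ← Nat.card_eq_fintype_card] at h3
    obtain ⟨v, hv'⟩ : ∃ v, Nat.card P - 1 = k + 1 + v := ⟨Nat.card P - 1 - (k + 1), by omega⟩
    rw [hv'] at h3
    by_contra hc
    obtain ⟨k, rfl⟩ : ∃ j, k = j + 1 := ⟨k - 1, by omega⟩
    nlinarith
  refine ⟨l, inv, kP, kL, lP, fun D E e => ?_, lt, card, faith⟩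
  have k0 : (k : ℚ) ≠ 0 := by exact_mod_cast (by omega : k ≠ 0)
  have n0 : (k : ℚ) - l ≠ 0 := sub_ne_zero.2 (by exact_mod_cast (by omega : k ≠ l))
  have cs : ∀ (S : L → Prop) [DecidablePred S],
      (∑ x, if S x then (1 : ℚ) else 0) = {x | S x}.ncard := fun S _ => by rw [ncard_sum]; simp
  have cs' : ∀ (S : P → Prop) [DecidablePred S],
      (∑ x, if S x then (1 : ℚ) else 0) = {x | S x}.ncard := fun S _ => by rw [ncard_sum]; simp
  have ex : ∀ s t : Prop, ∀ [Decidable s] [Decidable t], (if s then (1 : ℚ) else 0) * (((if t then 1 else 0) - l / k) / (k - l)) =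
      ((if s ∧ t then 1 else 0) - l / k * (if s then 1 else 0)) / (k - l) := fun s t _ _ => by
    by_cases h1 : s <;> by_cases h3 : t <;> simp [h1, h3]
  have h3 : (Matrix.of fun p D => if I p D then (1 : ℚ) else 0) *
      (Matrix.of fun D p => ((if I p D then (1 : ℚ) else 0) - l / k) / (k - l)) = 1 := by
    ext p q
    simp only [Matrix.mul_apply, Matrix.of_apply, ex, ← Finset.sum_div, Finset.sum_sub_distrib, ← Finset.mul_sum, cs,
      kP, div_mul_cancel₀ _ k0, Matrix.one_apply]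
    split_ifs with e
    · simp only [e, and_self, kP, div_self n0]
    · simp [lP p q e]
  have h4 := congrFun₂ ((Matrix.mul_eq_one_comm_of_card_eq _ _ _ (by simpa using card)).1 h3) E D
  simp only [Matrix.mul_apply, Matrix.of_apply, mul_comm (_ / ((k : ℚ) - l)), ex, ← Finset.sum_div,
    Finset.sum_sub_distrib, ← Finset.mul_sum, cs', kL, div_mul_cancel₀ _ k0, Matrix.one_apply, if_neg e.symm,
    div_eq_zero_iff, n0, or_false, sub_eq_zero, and_comm (a := I _ E)] at h4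
  exact_mod_cast h4

end Cfsg.Agent.ONan
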